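import Mathlib
import Cfsg.Agent.Classical.Linear.Basic
import Cfsg.Agent.Classical.Linear.Bases
import Cfsg.Agent.Classical.Linear.Generation

/-!
`SL` on `Unit ⊕ ι'`: the stabiliser of the first basis vector.
-/

set_option autoImplicit false

namespace CfsgLib.SlMinDegree

open Matrix

variable {F : Type*} [Field F] {ι' : Type*} [Fintype ι'] [DecidableEq ι']

local notation "SLo" => Matrix.SpecialLinearGroup (Unit ⊕ ι') F
local notation "SLi" => Matrix.SpecialLinearGroup ι' F

/-- `[[1, v], [0, M]]`. -/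
def blk (v : ι' → F) (M : SLi) : SLo :=
  ⟨fromBlocks 1 (replicateRow Unit v) 0 (M : Matrix ι' ι' F), by
    rw [det_fromBlocks_zero₂₁, det_one, one_mul, M.2]⟩

theorem blk_mul (v v' : ι' → F) (M M' : SLi) :
    blk v M * blk v' M' = blk (v' + v ᵥ* (M' : Matrix ι' ι' F)) (M * M') := by
  apply Subtype.ext
  show fromBlocks _ _ _ _ * fromBlocks _ _ _ _ = fromBlocks _ _ _ _
  rw [fromBlocks_multiply]
  congr 1
  · simp
  · ext a b
    simp [Matrix.mul_apply, Matrix.vecMul, dotProduct, replicateRow]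
  · simp
  · simp

theorem blk_zero_one : blk (0 : ι' → F) (1 : SLi) = 1 := by
  apply Subtype.ext
  show fromBlocks _ _ _ _ = (1 : Matrix (Unit ⊕ ι') (Unit ⊕ ι') F)
  rw [show (replicateRow Unit (0 : ι' → F)) = 0 from by ext; simp [replicateRow],
    Matrix.SpecialLinearGroup.coe_one, fromBlocks_one]

/-- The embedding of the small group. -/
def emb : SLi →* SLo where
  toFun M := blk 0 M
  map_one' := blk_zero_one
  map_mul' M M' := by rw [blk_mul]; simp

/-- The translation group. -/
def ev : Multiplicative (ι' → F) →* SLo where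
  toFun v := blk v.toAdd 1
  map_one' := blk_zero_one
  map_mul' v w := by rw [blk_mul]; simp [add_comm]

theorem emb_mul_ev (v : ι' → F) (M : SLi) :
    emb M * ev (Multiplicative.ofAdd v) = blk v M := by
  show blk 0 M * blk v 1 = _
  rw [blk_mul]; simp

theorem ev_mul_emb (v : ι' → F) (M : SLi) :
    ev (Multiplicative.ofAdd v) * emb M =
      emb M * ev (Multiplicative.ofAdd (v ᵥ* (M : Matrix ι' ι' F))) := by
  rw [emb_mul_ev]
  show blk v 1 * blk 0 M = _
  rw [blk_mul]; simp

theorem blk_mulVec_inl (v : ι' → F) (M : SLi) (x : Unit ⊕ ι' → F) :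
    ((blk v M : SLo) : Matrix (Unit ⊕ ι') (Unit ⊕ ι') F) *ᵥ x =
      Sum.elim (fun _ => x (Sum.inl ()) + v ⬝ᵥ (x ∘ Sum.inr))
        ((M : Matrix ι' ι' F) *ᵥ (x ∘ Sum.inr)) := by
  show fromBlocks _ _ _ _ *ᵥ x = _
  rw [fromBlocks_mulVec]
  funext a
  rcases a with u | i
  · simp [replicateRow, Matrix.mulVec, dotProduct]
  · simp

theorem blk_mulVec_single (v : ι' → F) (M : SLi) :
    ((blk v M : SLo) : Matrix (Unit ⊕ ι') (Unit ⊕ ι') F) *ᵥ Pi.single (Sum.inl ()) 1 =
      Pi.single (Sum.inl ()) 1 := by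
  rw [blk_mulVec_inl]
  have h : (Pi.single (Sum.inl ()) (1 : F) : Unit ⊕ ι' → F) ∘ Sum.inr = 0 := by
    funext i; simp
  rw [h]
  funext a
  rcases a with u | i <;> simp

theorem exists_blk {g : SLo}
    (hg : (g : Matrix (Unit ⊕ ι') (Unit ⊕ ι') F) *ᵥ Pi.single (Sum.inl ()) 1 =
      Pi.single (Sum.inl ()) 1) :
    ∃ v M, g = blk v M := by
  have hcol : ∀ a, (g : Matrix (Unit ⊕ ι') (Unit ⊕ ι') F) a (Sum.inl ()) =
      (Pi.single (Sum.inl ()) 1 : Unit ⊕ ι' → F) a := fun a => by
    have := congrFun hg a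
    simpa [Matrix.mulVec_single] using this
  set N : Matrix ι' ι' F := (g : Matrix (Unit ⊕ ι') (Unit ⊕ ι') F).submatrix Sum.inr Sum.inr
  set v : ι' → F := fun i => (g : Matrix (Unit ⊕ ι') (Unit ⊕ ι') F) (Sum.inl ()) (Sum.inr i)
  have hg' : (g : Matrix (Unit ⊕ ι') (Unit ⊕ ι') F) = fromBlocks 1 (replicateRow Unit v) 0 N := by
    ext a b
    rcases a with u | i <;> rcases b with w | j
    · simpa using hcol (Sum.inl u)
    · simp [v, replicateRow]
    · simpa using hcol (Sum.inr i)
    · simp [N]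
  have hN : N.det = 1 := by
    have h := g.2
    rw [hg', det_fromBlocks_zero₂₁, det_one, one_mul] at h
    exact h
  exact ⟨v, ⟨N, hN⟩, Subtype.ext hg'⟩

theorem transvection_inl_inr (j : ι') (a : F) :
    (Matrix.SpecialLinearGroup.transvection (Sum.inl_ne_inr : (Sum.inl () : Unit ⊕ ι') ≠ Sum.inr j) a
      : SLo) = ev (Multiplicative.ofAdd (Pi.single j a)) := by
  apply Subtype.ext
  ext x y
  rw [CfsgLib.Classical.Linear.transvection_apply]
  show _ = fromBlocks _ _ _ _ x y
  rcases x with u | i <;> rcases y with w | k <;>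
    simp [replicateRow, Matrix.one_apply, Pi.single_apply]

theorem emb_transvection {i j : ι'} (hij : i ≠ j) (a : F) :
    emb (Matrix.SpecialLinearGroup.transvection hij a : SLi) =
      (Matrix.SpecialLinearGroup.transvection
        (fun h => hij (Sum.inr_injective h) : (Sum.inr i : Unit ⊕ ι') ≠ Sum.inr j) a : SLo) := by
  apply Subtype.ext
  ext x y
  rw [CfsgLib.Classical.Linear.transvection_apply]
  show fromBlocks _ _ _ _ x y = _
  rcases x with u | i <;> rcases y with w | k <;>
    simp [replicateRow, Matrix.one_apply, CfsgLib.Classical.Linear.transvection_apply]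

/-- Diagonal elements. -/
def diagSL {ι : Type*} [Fintype ι] [DecidableEq ι] (d : ι → F) (hd : ∏ i, d i = 1) :
    Matrix.SpecialLinearGroup ι F :=
  ⟨Matrix.diagonal d, by rw [det_diagonal, hd]⟩

theorem diag_mul_transvection {ι : Type*} [Fintype ι] [DecidableEq ι] (d : ι → F)
    (hd : ∏ i, d i = 1) {i j : ι} (hij : i ≠ j) (a c : F) (hc : d i * a = c * d j) :
    diagSL d hd * Matrix.SpecialLinearGroup.transvection hij a =
      Matrix.SpecialLinearGroup.transvection hij c * diagSL d hd := by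
  apply Subtype.ext
  ext k l
  show (Matrix.diagonal d * (Matrix.SpecialLinearGroup.transvection hij a : Matrix ι ι F)) k l =
    ((Matrix.SpecialLinearGroup.transvection hij c : Matrix ι ι F) * Matrix.diagonal d) k l
  rw [diagonal_mul, mul_diagonal, CfsgLib.Classical.Linear.transvection_apply,
    CfsgLib.Classical.Linear.transvection_apply]
  by_cases h : k = i ∧ l = j
  · obtain ⟨rfl, rfl⟩ := h
    simp [hij, hc]
  · by_cases h2 : k = l
    · subst h2; simp [h, mul_comm]
    · simp [h, h2]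

theorem diag_conj_ev (d : Unit ⊕ ι' → F) (hd : ∏ i, d i = 1) (v : ι' → F)
    (c : ι' → F) (hc : ∀ j, d (Sum.inl ()) * v j = c j * d (Sum.inr j)) :
    diagSL d hd * ev (Multiplicative.ofAdd v) = ev (Multiplicative.ofAdd c) * diagSL d hd := by
  apply Subtype.ext
  show Matrix.diagonal d * fromBlocks _ _ _ _ = fromBlocks _ _ _ _ * Matrix.diagonal d
  ext k l
  rw [diagonal_mul, mul_diagonal]
  rcases k with u | i <;> rcases l with w | j
  · simp [Matrix.one_apply]
  · simpa [replicateRow] using hc j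
  · simp
  · by_cases h : i = j
    · subst h; simp
    · simp [Matrix.one_apply, h]

end CfsgLib.SlMinDegree
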