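import Mathlib
import Cfsg.Agent.SlMinDegree.Blocks

/-!
Weight projections of a representation of `SL` on `Unit ⊕ ι'` for the translation group.
-/

set_option autoImplicit false
set_option linter.unusedSectionVars false

open scoped Classical

noncomputable section

namespace CfsgLib.SlMinDegree

open Matrix

theorem mul_mul_of_trace_one {k : ℕ} {P : Matrix (Fin k) (Fin k) ℂ} (hP : P * P = P)
    (ht : P.trace = 1) (X : Matrix (Fin k) (Fin k) ℂ) : P * X * P = (P * X).trace • P := by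
  let L : Module.End ℂ (Fin k → ℂ) := Matrix.toLin' P
  have hidem : IsIdempotentElem L := by
    show Matrix.toLin' P * Matrix.toLin' P = Matrix.toLin' P
    rw [Module.End.mul_eq_comp, ← Matrix.toLin'_mul, hP]
  have hrk : Module.finrank ℂ (LinearMap.range L) = 1 := by
    have h := (LinearMap.IsIdempotentElem.isProj_range L hidem).trace
    rw [Matrix.trace_toLin'_eq, ht] at h
    exact_mod_cast h.symm
  obtain ⟨u, -, hu⟩ := finrank_eq_one_iff'.1 hrk
  have hPu : P *ᵥ (u : Fin k → ℂ) = u := by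
    obtain ⟨y, hy⟩ := u.2
    rw [← hy]
    show P *ᵥ (P *ᵥ y) = P *ᵥ y
    rw [Matrix.mulVec_mulVec, hP]
  have hsp : ∀ y, ∃ c : ℂ, c • (u : Fin k → ℂ) = P *ᵥ y := fun y => by
    obtain ⟨c, hc⟩ := hu ⟨P *ᵥ y, ⟨y, rfl⟩⟩
    exact ⟨c, congrArg Subtype.val hc⟩
  obtain ⟨c, hc⟩ := hsp (X *ᵥ (P *ᵥ (u : Fin k → ℂ)))
  have h1 : P * X * P = c • P := by
    apply Matrix.ext_of_mulVec_single
    intro i
    obtain ⟨a, ha⟩ := hsp (Pi.single i 1)
    rw [Matrix.smul_mulVec, ← ha, smul_comm, hc, ← Matrix.mulVec_mulVec, ← Matrix.mulVec_mulVec,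
      ← ha, Matrix.mulVec_smul, Matrix.mulVec_smul, hPu]
  have h2 : (P * X).trace = c := by
    have h := congrArg Matrix.trace h1
    rwa [Matrix.trace_smul, ht, smul_eq_mul, mul_one, Matrix.trace_mul_comm, ← mul_assoc, hP] at h
  rw [h1, h2]

theorem exists_natCast_trace {k : ℕ} {P : Matrix (Fin k) (Fin k) ℂ} (hP : P * P = P) :
    ∃ a : ℕ, P.trace = a ∧ (a = 0 → P = 0) := by
  let L : Module.End ℂ (Fin k → ℂ) := Matrix.toLin' P
  have hidem : IsIdempotentElem L := by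
    show Matrix.toLin' P * Matrix.toLin' P = Matrix.toLin' P
    rw [Module.End.mul_eq_comp, ← Matrix.toLin'_mul, hP]
  refine ⟨Module.finrank ℂ (LinearMap.range L), ?_, fun h => ?_⟩
  · rw [← (LinearMap.IsIdempotentElem.isProj_range L hidem).trace, Matrix.trace_toLin'_eq]
  · have : LinearMap.range L = ⊥ := Submodule.finrank_eq_zero.1 h
    exact Matrix.toLin'.map_eq_zero_iff.1 (LinearMap.range_eq_bot.1 this)

variable {F : Type*} [Field F] [Fintype F] [DecidableEq F] {ι' : Type*} [Fintype ι'] [DecidableEq ι']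
variable {k : ℕ} (R : Matrix.SpecialLinearGroup (Unit ⊕ ι') F →* Matrix (Fin k) (Fin k) ℂ)
  (ψ : AddChar F ℂ)

/-- The projection on the weight space of `w`. -/
def wproj (w : ι' → F) : Matrix (Fin k) (Fin k) ℂ :=
  (Fintype.card (ι' → F) : ℂ)⁻¹ • ∑ v : ι' → F, ψ (-(v ⬝ᵥ w)) • R (ev (Multiplicative.ofAdd v))

variable {ψ}

theorem sum_psi_dot (hψ : ψ 1 ≠ 1) (v : ι' → F) :
    ∑ w : ι' → F, ψ (v ⬝ᵥ w) = if v = 0 then (Fintype.card (ι' → F) : ℂ) else 0 := by
  split_ifs with hv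
  · subst hv
    simp
  · obtain ⟨i, hi⟩ := Function.ne_iff.1 hv
    set y : ι' → F := Pi.single i (v i)⁻¹ with hy
    have hvy : v ⬝ᵥ y = 1 := by
      rw [hy, dotProduct_single, mul_inv_cancel₀ hi]
    have h1 : ∑ w : ι' → F, ψ (v ⬝ᵥ w) = ψ 1 * ∑ w : ι' → F, ψ (v ⬝ᵥ w) := by
      rw [Finset.mul_sum, ← Equiv.sum_comp (Equiv.addLeft y) (fun w => ψ (v ⬝ᵥ w))]
      refine Finset.sum_congr rfl fun w _ => ?_
      rw [Equiv.coe_addLeft, dotProduct_add, hvy, AddChar.map_add_eq_mul]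
    by_contra h
    exact hψ (mul_right_cancel₀ h (by rw [← h1, one_mul]))

theorem sum_wproj (hψ : ψ 1 ≠ 1) : ∑ w : ι' → F, wproj R ψ w = 1 := by
  have hne : (Fintype.card (ι' → F) : ℂ) ≠ 0 := Nat.cast_ne_zero.2 Fintype.card_ne_zero
  simp only [wproj]
  rw [← Finset.smul_sum, Finset.sum_comm]
  simp only [← Finset.sum_smul]
  have h : ∀ v : ι' → F, ∑ w : ι' → F, ψ (-(v ⬝ᵥ w)) =
      if v = 0 then (Fintype.card (ι' → F) : ℂ) else 0 := fun v => by
    rw [← sum_psi_dot hψ v, ← Equiv.sum_comp (Equiv.neg (ι' → F))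
      (fun w => ψ (v ⬝ᵥ w))]
    simp
  simp only [h, ite_smul, zero_smul, Finset.sum_ite_eq', Finset.mem_univ, if_true]
  rw [ofAdd_zero, map_one, map_one, inv_smul_smul₀ hne]

theorem R_ev_add (v v' : ι' → F) :
    R (ev (Multiplicative.ofAdd (v + v'))) =
      R (ev (Multiplicative.ofAdd v)) * R (ev (Multiplicative.ofAdd v')) := by
  rw [← map_mul, ← map_mul]; rfl

theorem R_ev_mul_wproj (v : ι' → F) (w : ι' → F) :
    R (ev (Multiplicative.ofAdd v)) * wproj R ψ w = ψ (v ⬝ᵥ w) • wproj R ψ w := by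
  simp only [wproj]
  rw [mul_smul_comm, smul_comm (ψ (v ⬝ᵥ w)), Finset.mul_sum, Finset.smul_sum (r := ψ (v ⬝ᵥ w))]
  congr 1
  conv_rhs => rw [← Equiv.sum_comp (Equiv.addLeft v)
    (fun x => ψ (v ⬝ᵥ w) • ψ (-(x ⬝ᵥ w)) • R (ev (Multiplicative.ofAdd x)))]
  refine Finset.sum_congr rfl fun x _ => ?_
  rw [Equiv.coe_addLeft, mul_smul_comm, ← R_ev_add, smul_smul, ← AddChar.map_add_eq_mul]
  congr 2
  rw [add_dotProduct]; ring

theorem wproj_mul_wproj (hψ : ψ 1 ≠ 1) (w w' : ι' → F) :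
    wproj R ψ w * wproj R ψ w' = if w = w' then wproj R ψ w' else 0 := by
  have hne : (Fintype.card (ι' → F) : ℂ) ≠ 0 := Nat.cast_ne_zero.2 Fintype.card_ne_zero
  nth_rewrite 1 [wproj]
  rw [smul_mul_assoc, Finset.sum_mul]
  simp only [smul_mul_assoc, R_ev_mul_wproj, smul_smul, ← Finset.sum_smul]
  have h : ∀ x : ι' → F, ψ (-(x ⬝ᵥ w)) * ψ (x ⬝ᵥ w') = ψ ((w' - w) ⬝ᵥ x) := fun x => by
    rw [← AddChar.map_add_eq_mul, sub_dotProduct, dotProduct_comm w', dotProduct_comm w]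
    congr 1; ring
  simp only [h, sum_psi_dot hψ, sub_eq_zero, eq_comm (a := w')]
  split_ifs with h1
  · rw [inv_mul_cancel₀ hne, one_smul]
  · simp

theorem R_emb_mul_wproj (M : Matrix.SpecialLinearGroup ι' F) (w : ι' → F) :
    R (emb M) * wproj R ψ w = wproj R ψ ((M : Matrix ι' ι' F) *ᵥ w) * R (emb M) := by
  simp only [wproj]
  rw [mul_smul_comm, smul_mul_assoc, Finset.mul_sum, Finset.sum_mul]
  congr 1
  let e : (ι' → F) ≃ (ι' → F) :=
    { toFun := fun v => v ᵥ* (M : Matrix ι' ι' F)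
      invFun := fun v => v ᵥ* ((M⁻¹ : Matrix.SpecialLinearGroup ι' F) : Matrix ι' ι' F)
      left_inv := fun v => by
        show v ᵥ* _ ᵥ* _ = v
        rw [Matrix.vecMul_vecMul, ← Matrix.SpecialLinearGroup.coe_mul, mul_inv_cancel]
        simp
      right_inv := fun v => by
        show v ᵥ* _ ᵥ* _ = v
        rw [Matrix.vecMul_vecMul, ← Matrix.SpecialLinearGroup.coe_mul, inv_mul_cancel]
        simp }
  conv_lhs => rw [← e.sum_comp]
  refine Finset.sum_congr rfl fun v _ => ?_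
  show R (emb M) * (ψ (-((v ᵥ* (M : Matrix ι' ι' F)) ⬝ᵥ w)) •
    R (ev (Multiplicative.ofAdd (v ᵥ* (M : Matrix ι' ι' F))))) = _
  rw [mul_smul_comm, smul_mul_assoc, ← map_mul, ← ev_mul_emb, map_mul, Matrix.dotProduct_mulVec]

theorem wproj_comm_diag {h : Matrix.SpecialLinearGroup (Unit ⊕ ι') F} {w : ι' → F}
    (c : (ι' → F) ≃ (ι' → F))
    (hc : ∀ v, h * ev (Multiplicative.ofAdd v) = ev (Multiplicative.ofAdd (c v)) * h)
    (hd : ∀ v, c v ⬝ᵥ w = v ⬝ᵥ w) :
    R h * wproj R ψ w = wproj R ψ w * R h := by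
  simp only [wproj]
  rw [mul_smul_comm, smul_mul_assoc, Finset.mul_sum, Finset.sum_mul]
  congr 1
  conv_rhs => rw [← c.sum_comp]
  refine Finset.sum_congr rfl fun v _ => ?_
  rw [mul_smul_comm, smul_mul_assoc, ← map_mul, ← map_mul, hc, hd]

/-- Only fixed weights contribute to a trace. -/
theorem trace_wproj_eq_zero (hψ : ψ 1 ≠ 1) {M : Matrix.SpecialLinearGroup ι' F} {w : ι' → F}
    (h : (M : Matrix ι' ι' F) *ᵥ w ≠ w) : (wproj R ψ w * R (emb M)).trace = 0 := by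
  have hsq : wproj R ψ w * wproj R ψ w = wproj R ψ w := by
    rw [wproj_mul_wproj R hψ, if_pos rfl]
  rw [← hsq, mul_assoc, Matrix.trace_mul_comm, mul_assoc, R_emb_mul_wproj, ← mul_assoc,
    wproj_mul_wproj R hψ, if_neg (Ne.symm h), zero_mul, Matrix.trace_zero]

theorem trace_blk (hψ : ψ 1 ≠ 1) (v : ι' → F) (M : Matrix.SpecialLinearGroup ι' F) :
    (R (blk v M)).trace = ∑ w : ι' → F, ψ (v ⬝ᵥ w) * (wproj R ψ w * R (emb M)).trace := by
  rw [← emb_mul_ev, map_mul]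
  conv_lhs => rw [← mul_one (R (ev (Multiplicative.ofAdd v))), ← sum_wproj R hψ, Finset.mul_sum,
    Finset.mul_sum]
  rw [Matrix.trace_sum]
  refine Finset.sum_congr rfl fun w _ => ?_
  rw [R_ev_mul_wproj, mul_smul_comm, Matrix.trace_smul, smul_eq_mul, Matrix.trace_mul_comm]

/-- The weight multiplicities are constant on non-zero weights. -/
theorem trace_wproj_mulVec (K : Matrix.SpecialLinearGroup ι' F) (w : ι' → F)
    (X : Matrix (Fin k) (Fin k) ℂ) :
    (wproj R ψ ((K : Matrix ι' ι' F) *ᵥ w) * (R (emb K) * X * R (emb K⁻¹))).trace =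
      (wproj R ψ w * X).trace := by
  rw [← mul_assoc, ← mul_assoc, ← R_emb_mul_wproj, mul_assoc (R (emb K)), Matrix.trace_mul_comm,
    ← mul_assoc, ← map_mul, ← map_mul, inv_mul_cancel, map_one, map_one, one_mul]

end CfsgLib.SlMinDegree
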