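import Mathlib
import Cfsg.Agent.SlMinDegree.Weights

/-!
A weight of multiplicity one has trivial stabiliser character.
-/

set_option autoImplicit false
set_option linter.unusedSectionVars false

open scoped Classical

noncomputable section

namespace CfsgLib.SlMinDegree

open Matrix

variable {F : Type*} [Field F] [Fintype F] [DecidableEq F] {l k : ℕ}

theorem exists_pow_ne_one {F : Type*} [Field F] [Fintype F] {e : ℕ} (he : 0 < e)
    (h : ¬ (Fintype.card F - 1) ∣ e) : ∃ t : F, t ≠ 0 ∧ t ^ e ≠ 1 := by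
  obtain ⟨g, hg⟩ := IsCyclic.exists_generator (α := Fˣ)
  refine ⟨(g : F), g.ne_zero, fun h1 => h ?_⟩
  have h2 : g ^ e = 1 := Units.ext (by rw [Units.val_pow_eq_pow_val]; exact h1)
  have ho : orderOf g = Fintype.card F - 1 := by
    rw [orderOf_eq_card_of_forall_mem_zpowers hg, Nat.card_units, Nat.card_eq_fintype_card]
  rw [← ho]
  exact orderOf_dvd_of_pow_eq_one h2

/-- The ambient group. -/
abbrev SLG (F : Type*) [Field F] (l : ℕ) := Matrix.SpecialLinearGroup (Unit ⊕ (Unit ⊕ Fin l)) F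

/-- The base weight. -/
def w0 (F : Type*) [Field F] (l : ℕ) : Unit ⊕ Fin l → F := Pi.single (Sum.inl ()) 1

variable (R : SLG F l →* Matrix (Fin k) (Fin k) ℂ) (ψ : AddChar F ℂ)

/-- The character of the stabiliser on the weight line. -/
def lam (g : SLG F l) : ℂ := (wproj R ψ (w0 F l) * R g).trace

variable {ψ}

theorem commute_emb {M : Matrix.SpecialLinearGroup (Unit ⊕ Fin l) F}
    (hM : (M : Matrix (Unit ⊕ Fin l) (Unit ⊕ Fin l) F) *ᵥ w0 F l = w0 F l) :
    Commute (R (emb M)) (wproj R ψ (w0 F l)) := by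
  show _ = _
  rw [R_emb_mul_wproj, hM]

theorem lam_mul (hψ : ψ 1 ≠ 1) (h1 : (wproj R ψ (w0 F l)).trace = 1) {g : SLG F l}
    (hg : Commute (R g) (wproj R ψ (w0 F l))) (g' : SLG F l) :
    lam R ψ (g * g') = lam R ψ g * lam R ψ g' := by
  have hP : wproj R ψ (w0 F l) * wproj R ψ (w0 F l) = wproj R ψ (w0 F l) := by
    rw [wproj_mul_wproj R hψ, if_pos rfl]
  unfold lam
  set P := wproj R ψ (w0 F l)
  have h2 : P * (R g * R g') = (P * R g).trace • (P * R g') := by
    rw [← smul_mul_assoc, ← mul_mul_of_trace_one hP h1, mul_assoc P (R g) P, hg.eq, ← mul_assoc P P,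
      hP, mul_assoc]
  rw [map_mul, h2, Matrix.trace_smul, smul_eq_mul]

theorem lam_one (h1 : (wproj R ψ (w0 F l)).trace = 1) : lam R ψ 1 = 1 := by
  rw [lam, map_one, mul_one, h1]

theorem lam_ne_zero (hψ : ψ 1 ≠ 1) (h1 : (wproj R ψ (w0 F l)).trace = 1) {g : SLG F l}
    (hg : Commute (R g) (wproj R ψ (w0 F l))) : lam R ψ g ≠ 0 := by
  intro h
  have h' := lam_mul R hψ h1 hg g⁻¹
  rw [mul_inv_cancel, lam_one R h1, h, zero_mul] at h'
  exact one_ne_zero h'

theorem lam_eq_one_of_commutator (hψ : ψ 1 ≠ 1) (h1 : (wproj R ψ (w0 F l)).trace = 1) {g g' x : SLG F l}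
    (hg : Commute (R g) (wproj R ψ (w0 F l))) (hg' : Commute (R g') (wproj R ψ (w0 F l)))
    (hx : Commute (R x) (wproj R ψ (w0 F l))) (h : g * g' = x * g' * g) : lam R ψ x = 1 := by
  have e : lam R ψ (x * g' * g) = lam R ψ x * lam R ψ g' * lam R ψ g := by
    rw [mul_assoc x g' g, lam_mul R hψ h1 hx, lam_mul R hψ h1 hg', mul_assoc]
  rw [← h, lam_mul R hψ h1 hg] at e
  have hne : lam R ψ g * lam R ψ g' ≠ 0 :=
    mul_ne_zero (lam_ne_zero R hψ h1 hg) (lam_ne_zero R hψ h1 hg')
  exact mul_right_cancel₀ hne (by rw [one_mul]; linear_combination -e)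

local notation "SLM" => Matrix.SpecialLinearGroup (Unit ⊕ Fin l) F

theorem fix_ev (r : Fin l → F) :
    ((ev (Multiplicative.ofAdd r) : SLM) : Matrix (Unit ⊕ Fin l) (Unit ⊕ Fin l) F) *ᵥ w0 F l =
      w0 F l :=
  blk_mulVec_single r 1

theorem fix_emb (B : Matrix.SpecialLinearGroup (Fin l) F) :
    ((emb B : SLM) : Matrix (Unit ⊕ Fin l) (Unit ⊕ Fin l) F) *ᵥ w0 F l = w0 F l :=
  blk_mulVec_single 0 B

theorem prod_update_single {ι : Type*} [Fintype ι] [DecidableEq ι] {i j : ι} (hij : i ≠ j) (a b : F) :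
    ∏ x, (if x = i then a else if x = j then b else 1) = a * b := by
  rw [Fintype.prod_eq_mul i j hij]
  · simp [hij.symm]
  · rintro x ⟨hi, hj⟩; simp [hi, hj]

theorem lam_ev_single (hψ : ψ 1 ≠ 1) (h1 : (wproj R ψ (w0 F l)).trace = 1)
    (hq : 2 ≤ l ∨ ¬ (Fintype.card F - 1) ∣ 3) (j : Fin l) (a : F) :
    lam R ψ (emb (ev (Multiplicative.ofAdd (Pi.single j a)) : SLM)) = 1 := by
  have hc : ∀ r : Fin l → F, Commute (R (emb (ev (Multiplicative.ofAdd r) : SLM)))
      (wproj R ψ (w0 F l)) := fun r => commute_emb R (fix_ev r)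
  rcases Nat.lt_or_ge l 2 with hl | hl
  · obtain ⟨t, ht0, ht⟩ := exists_pow_ne_one (e := 3) (by norm_num) (hq.resolve_left (by omega))
    haveI : Subsingleton (Fin l) := Fin.subsingleton_iff_le_one.2 (by omega)
    let d : Unit ⊕ (Unit ⊕ Fin l) → F :=
      Sum.elim (fun _ => t) (Sum.elim (fun _ => t) (fun _ => (t ^ 2)⁻¹))
    have hd : ∏ x, d x = 1 := by
      have hl1 : l = 1 := by
        have := j.isLt
        omega
      simp only [Fintype.prod_sum_type, d, Sum.elim_inl, Sum.elim_inr, Finset.univ_unique,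
        Finset.prod_singleton, Finset.prod_const, Finset.card_univ, Finset.card_singleton, Fintype.card_fin, hl1, pow_one]
      field_simp
    let c : (Unit ⊕ Fin l → F) ≃ (Unit ⊕ Fin l → F) :=
      Equiv.piCongrRight fun x => Equiv.mulRight₀ (t * (d (Sum.inr x))⁻¹) (by
        apply mul_ne_zero ht0
        apply inv_ne_zero
        rcases x with u | i <;> simp [d, ht0])
    have hh : ∀ v, diagSL d hd * ev (Multiplicative.ofAdd v) =
        ev (Multiplicative.ofAdd (c v)) * diagSL d hd := fun v => diag_conj_ev d hd v _ fun x => by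
      have : d (Sum.inr x) ≠ 0 := by rcases x with u | i <;> simp [d, ht0]
      show t * v x = v x * (t * (d (Sum.inr x))⁻¹) * d (Sum.inr x)
      field_simp
    have hcd : Commute (R (diagSL d hd)) (wproj R ψ (w0 F l)) :=
      wproj_comm_diag R c hh fun v => by
        rw [w0, dotProduct_single, dotProduct_single]
        simp [c, d, ht0]
    have hkey : ∀ b : F, diagSL d hd * emb (ev (Multiplicative.ofAdd (Pi.single j b)) : SLM) =
        emb (ev (Multiplicative.ofAdd (Pi.single j (t ^ 3 * b))) : SLM) * diagSL d hd := fun b => by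
      rw [← transvection_inl_inr, ← transvection_inl_inr, emb_transvection, emb_transvection]
      refine diag_mul_transvection d hd _ _ _ ?_
      simp only [d, Sum.elim_inr, Sum.elim_inl]
      field_simp
    set b : F := a / (t ^ 3 - 1) with hb
    have hb' : t ^ 3 * b = a + b := by
      have : t ^ 3 - 1 ≠ 0 := sub_ne_zero.2 ht
      rw [hb]; field_simp; ring
    refine lam_eq_one_of_commutator R hψ h1 hcd (hc (Pi.single j b)) (hc _) ?_
    rw [hkey, hb', Pi.single_add, ofAdd_add, map_mul, map_mul]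
  · obtain ⟨i, hi⟩ : ∃ i : Fin l, i ≠ j := by
      haveI : Nontrivial (Fin l) := Fin.nontrivial_iff_two_le.2 hl
      exact exists_ne j
    set g : SLM := ev (Multiplicative.ofAdd (Pi.single i a)) with hg
    set g' : SLM := emb (Matrix.SpecialLinearGroup.transvection hi (1 : F)) with hg'
    refine lam_eq_one_of_commutator R hψ h1 (g := emb g) (g' := emb g')
      (hc _) (commute_emb R (fix_emb _)) (hc _) ?_
    rw [← map_mul, ← map_mul, ← map_mul]
    congr 1
    rw [hg, hg', ← transvection_inl_inr, ← transvection_inl_inr, emb_transvection]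
    have h := CfsgLib.Classical.Linear.transvection_commutator (ι := Unit ⊕ Fin l)
      (i := Sum.inl ()) (j := Sum.inr i) (k := Sum.inr j) Sum.inl_ne_inr
      (fun e => hi (Sum.inr_injective e)) Sum.inl_ne_inr a 1
    rw [mul_one] at h
    rw [← h]
    group

theorem lam_emb_transvection (hψ : ψ 1 ≠ 1) (h1 : (wproj R ψ (w0 F l)).trace = 1)
    (hq : 3 ≤ l ∨ ¬ (Fintype.card F - 1) ∣ 2) {i j : Fin l} (hij : i ≠ j) (a : F) :
    lam R ψ (emb (emb (Matrix.SpecialLinearGroup.transvection hij a) : SLM)) = 1 := by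
  have hc : ∀ B : Matrix.SpecialLinearGroup (Fin l) F, Commute (R (emb (emb B : SLM)))
      (wproj R ψ (w0 F l)) := fun B => commute_emb R (fix_emb B)
  rcases Nat.lt_or_ge l 3 with hl | hl
  · obtain ⟨t, ht0, ht⟩ := exists_pow_ne_one (e := 2) (by norm_num) (hq.resolve_left (by omega))
    let d2 : Fin l → F := fun x => if x = i then t else if x = j then t⁻¹ else 1
    have hd2 : ∏ x, d2 x = 1 := by
      rw [prod_update_single hij, mul_inv_cancel₀ ht0]
    have hkey : ∀ b : F, diagSL d2 hd2 * Matrix.SpecialLinearGroup.transvection hij b =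
        Matrix.SpecialLinearGroup.transvection hij (t ^ 2 * b) * diagSL d2 hd2 := fun b => by
      refine diag_mul_transvection d2 hd2 _ _ _ ?_
      simp only [d2, if_pos rfl, if_neg hij.symm, if_true]
      field_simp
    set b : F := a / (t ^ 2 - 1) with hb
    have hb' : t ^ 2 * b = a + b := by
      have : t ^ 2 - 1 ≠ 0 := sub_ne_zero.2 ht
      rw [hb]; field_simp; ring
    refine lam_eq_one_of_commutator R hψ h1 (hc (diagSL d2 hd2))
      (hc (Matrix.SpecialLinearGroup.transvection hij b)) (hc _) ?_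
    simp only [← map_mul]
    rw [hkey, hb', Matrix.SpecialLinearGroup.transvection_add]
  · obtain ⟨x, hxi, hxj⟩ := CfsgLib.Classical.Linear.exists_third (ι := Fin l) (by simpa using hl) i j
    refine lam_eq_one_of_commutator R hψ h1
      (hc (Matrix.SpecialLinearGroup.transvection hxi.symm a))
      (hc (Matrix.SpecialLinearGroup.transvection hxj (1 : F))) (hc _) ?_
    simp only [← map_mul]
    have h := CfsgLib.Classical.Linear.transvection_commutator hxi.symm hxj hij a (1 : F)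
    rw [mul_one] at h
    rw [← h]
    congr 2
    group

theorem lam_stab (hψ : ψ 1 ≠ 1) (h1 : (wproj R ψ (w0 F l)).trace = 1)
    (hq2 : 2 ≤ l ∨ ¬ (Fintype.card F - 1) ∣ 3) (hq3 : l ≠ 2 ∨ ¬ (Fintype.card F - 1) ∣ 2) {M : SLM}
    (hM : (M : Matrix (Unit ⊕ Fin l) (Unit ⊕ Fin l) F) *ᵥ w0 F l = w0 F l) :
    lam R ψ (emb M) = 1 := by
  obtain ⟨r, B, rfl⟩ := exists_blk hM
  rw [← emb_mul_ev, map_mul, lam_mul R hψ h1 (commute_emb R (fix_emb B))]
  have hB : lam R ψ (emb (emb B : SLM)) = 1 := by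
    refine CfsgLib.Classical.Linear.sl_induction
      (P := fun B => lam R ψ (emb (emb B : SLM)) = 1) ?_ ?_ ?_ B
    · rw [map_one, map_one, lam_one R h1]
    · intro i j hij a
      refine lam_emb_transvection R hψ h1 ?_ hij a
      rcases hq3 with h | h
      · left
        have : 2 ≤ l := Fin.nontrivial_iff_two_le.1 ⟨⟨i, j, hij⟩⟩
        omega
      · right; exact h
    · intro A B hA hB
      rw [map_mul, map_mul, lam_mul R hψ h1 (commute_emb R (fix_emb A)), hA, hB, one_mul]
  rw [hB, one_mul]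
  clear hM
  rw [← Finset.univ_sum_single r]
  induction (Finset.univ : Finset (Fin l)) using Finset.induction_on with
  | empty => simp [lam_one R h1]
  | insert a s ha ih =>
    rw [Finset.sum_insert ha, ofAdd_add, map_mul, map_mul,
      lam_mul R hψ h1 (commute_emb R (fix_ev _)), ih, lam_ev_single R hψ h1 hq2, one_mul]

theorem exists_sl_mulVec_eq {ι : Type*} [Fintype ι] [DecidableEq ι] (h : 2 ≤ Fintype.card ι)
    {v w : ι → F} (hv : v ≠ 0) (hw : w ≠ 0) :
    ∃ g : Matrix.SpecialLinearGroup ι F, (g : Matrix ι ι F) *ᵥ v = w := by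
  obtain ⟨g, hg⟩ := CfsgLib.Classical.Linear.exists_sl_map_family (κ := Fin 1) (ι := ι)
    (by simp; omega) (LinearIndependent.of_subsingleton (0 : Fin 1) hv : LinearIndependent F fun _ => v)
    (LinearIndependent.of_subsingleton (0 : Fin 1) hw : LinearIndependent F fun _ => w)
  exact ⟨g, hg 0⟩

theorem w0_ne_zero : w0 F l ≠ 0 := by simp [w0]

theorem trace_wproj_const (hl : 1 ≤ l) {w : Unit ⊕ Fin l → F} (hw : w ≠ 0) :
    (wproj R ψ w).trace = (wproj R ψ (w0 F l)).trace := by
  obtain ⟨K, rfl⟩ := exists_sl_mulVec_eq (by simp; omega) w0_ne_zero hw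
  have h := trace_wproj_mulVec R (ψ := ψ) K (w0 F l) 1
  rwa [mul_one, mul_one, ← map_mul, ← map_mul, mul_inv_cancel, map_one, map_one, mul_one] at h

theorem trace_wproj_emb (hψ : ψ 1 ≠ 1) (h1 : (wproj R ψ (w0 F l)).trace = 1) (hl : 1 ≤ l)
    (hq2 : 2 ≤ l ∨ ¬ (Fintype.card F - 1) ∣ 3) (hq3 : l ≠ 2 ∨ ¬ (Fintype.card F - 1) ∣ 2)
    {w : Unit ⊕ Fin l → F} (hw : w ≠ 0) (M : SLM) :
    (wproj R ψ w * R (emb M)).trace =
      if (M : Matrix (Unit ⊕ Fin l) (Unit ⊕ Fin l) F) *ᵥ w = w then 1 else 0 := by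
  split_ifs with hfix
  · obtain ⟨K, rfl⟩ := exists_sl_mulVec_eq (by simp; omega) w0_ne_zero hw
    have hM' : ((K⁻¹ * M * K : SLM) : Matrix (Unit ⊕ Fin l) (Unit ⊕ Fin l) F) *ᵥ w0 F l = w0 F l := by
      rw [Matrix.SpecialLinearGroup.coe_mul, Matrix.SpecialLinearGroup.coe_mul, ← Matrix.mulVec_mulVec,
        ← Matrix.mulVec_mulVec, hfix, Matrix.mulVec_mulVec, ← Matrix.SpecialLinearGroup.coe_mul,
        inv_mul_cancel, Matrix.SpecialLinearGroup.coe_one, Matrix.one_mulVec]
    rw [show emb M = emb K * emb (K⁻¹ * M * K) * emb K⁻¹ by rw [← map_mul, ← map_mul]; group,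
      map_mul, map_mul, trace_wproj_mulVec]
    exact lam_stab R hψ h1 hq2 hq3 hM'
  · exact trace_wproj_eq_zero R hψ hfix

end CfsgLib.SlMinDegree
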