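import Mathlib

/-!
The arithmetic behind the minimal degree of `SL_n(q)`.
-/

set_option autoImplicit false

namespace CfsgLib.SlMinDegree

/-- `1 + q + ⋯ + q ^ (n - 1)`. -/
def geomN (n q : ℕ) : ℕ := ∑ i ∈ Finset.range n, q ^ i

theorem geomN_zero (q : ℕ) : geomN 0 q = 0 := rfl

theorem geomN_succ (n q : ℕ) : geomN (n + 1) q = geomN n q + q ^ n :=
  Finset.sum_range_succ _ _

theorem geomN_succ' (n q : ℕ) : geomN (n + 1) q = 1 + q * geomN n q := by
  rw [geomN, geomN, Finset.sum_range_succ', Finset.mul_sum, add_comm]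
  simp [pow_succ, mul_comm]

theorem sub_one_mul_geomN (n : ℕ) {q : ℕ} (hq : 1 ≤ q) : (q - 1) * geomN n q + 1 = q ^ n := by
  obtain ⟨r, rfl⟩ : ∃ r, q = r + 1 := ⟨q - 1, by omega⟩
  induction n with
  | zero => simp [geomN_zero]
  | succ n ih =>
    rw [geomN_succ, Nat.mul_add, pow_succ]
    simp only [Nat.add_sub_cancel] at ih ⊢
    rw [← ih]
    ring

theorem le_geomN (n : ℕ) {q : ℕ} (hq : 1 ≤ q) : n ≤ geomN n q := by
  induction n with
  | zero => exact Nat.zero_le _
  | succ n ih =>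
    rw [geomN_succ]
    have := Nat.one_le_pow n q (by omega)
    omega

theorem geomN_lt (n : ℕ) {q : ℕ} (hq : 2 ≤ q) : geomN n q < q ^ n := by
  have := sub_one_mul_geomN n (show 1 ≤ q by omega)
  have := Nat.le_mul_of_pos_left (geomN n q) (show 0 < q - 1 by omega)
  omega

/-- The `p`-part bound: a power `q ^ j` dividing `A - e` forces `1 + ⋯ + q ^ (j - 1) ≤ e`. -/
theorem geomN_le_of_dvd {n q e j : ℕ} (hq : 2 ≤ q) (hj : j ≤ n)
    (hdvd : q ^ j ∣ geomN n q - e) : geomN j q ≤ e := by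
  by_contra hlt
  push Not at hlt
  obtain ⟨B, hB⟩ : ∃ B, geomN n q = geomN j q + q ^ j * B := by
    refine ⟨geomN (n - j) q, ?_⟩
    rw [geomN, geomN, geomN, Finset.mul_sum]
    have h := Finset.sum_range_add (fun i => q ^ i) j (n - j)
    rw [Nat.add_sub_cancel' hj] at h
    rw [h]
    simp [pow_add]
  have e1 : geomN n q - e = (geomN j q - e) + q ^ j * B := by omega
  rw [e1] at hdvd
  have h2 : q ^ j ∣ geomN j q - e := (Nat.dvd_add_left (dvd_mul_right _ _)).1 hdvd
  have := Nat.le_of_dvd (by omega) h2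
  have := geomN_lt j hq
  omega

/-- The finitely many small cases. -/
theorem small_check : ∀ n ∈ Finset.Icc 3 15, ∀ q ∈ Finset.Icc 2 15, ∀ e ∈ Finset.Icc 2 n,
    (n = 3 ∧ q = 2) ∨ (n = 3 ∧ q = 4) ∨ (n = 4 ∧ q = 2) ∨ (n = 4 ∧ q = 3) ∨ q = 10 ∨
      ¬ (geomN n q - e) ∣ geomN n q * (q ^ (n - 1) - 1) * q ^ (n - 1) := by
  decide +kernel

theorem ten_pow_ne_prime_pow {p s : ℕ} (hp : p.Prime) : p ^ s ≠ 10 := by
  intro h
  have h2 : (2 : ℕ) ∣ p ^ s := by rw [h]; norm_num
  have h5 : (5 : ℕ) ∣ p ^ s := by rw [h]; norm_num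
  have e2 := (Nat.prime_dvd_prime_iff_eq Nat.prime_two hp).1 (Nat.prime_two.dvd_of_dvd_pow h2)
  have e5 := (Nat.prime_dvd_prime_iff_eq Nat.prime_five hp).1 (Nat.prime_five.dvd_of_dvd_pow h5)
  omega

theorem cube_le_two_pow : ∀ n, 16 ≤ n → n ^ 3 ≤ 2 ^ (n - 4) := by
  intro n hn
  induction n, hn using Nat.le_induction with
  | base => norm_num
  | succ n hn ih =>
    have e : n + 1 - 4 = (n - 4) + 1 := by omega
    rw [e, pow_succ 2 (n - 4)]
    have h1 := Nat.mul_le_mul hn (le_refl (n * n))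
    have h2 : n ≤ n * n := Nat.le_mul_self n
    have e3 : (n + 1) ^ 3 = n ^ 3 + 3 * (n * n) + 3 * n + 1 := by ring
    have e4 : n ^ 3 = n * (n * n) := by ring
    omega

/-- No `A - e` with `2 ≤ e ≤ n` divides the class-sum numerator. -/
theorem not_dvd_numerator {n q e : ℕ} (hq : IsPrimePow q) (hn : 3 ≤ n)
    (hex : ¬(n = 3 ∧ q = 2) ∧ ¬(n = 3 ∧ q = 4) ∧ ¬(n = 4 ∧ q = 2) ∧ ¬(n = 4 ∧ q = 3))
    (he : 2 ≤ e) (hen : e ≤ n) :
    ¬ (geomN n q - e) ∣ geomN n q * (q ^ (n - 1) - 1) * q ^ (n - 1) := by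
  obtain ⟨p, s, hp, hs, hps⟩ := hq
  have hp' : p.Prime := hp.nat_prime
  have h2q : 2 ≤ q := hps ▸ hp'.two_le.trans (Nat.le_self_pow hs.ne' p)
  by_cases hsmall : n ≤ 15 ∧ q ≤ 15
  · rcases small_check n (Finset.mem_Icc.2 ⟨hn, hsmall.1⟩) q (Finset.mem_Icc.2 ⟨h2q, hsmall.2⟩) e
      (Finset.mem_Icc.2 ⟨he, hen⟩) with h | h | h | h | h | h
    · exact absurd h hex.1
    · exact absurd h hex.2.1
    · exact absurd h hex.2.2.1
    · exact absurd h hex.2.2.2
    · exact absurd (hps.trans h) (ten_pow_ne_prime_pow hp')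
    · exact h
  intro hdvd
  obtain ⟨l, rfl⟩ : ∃ l, n = l + 3 := ⟨n - 3, by omega⟩
  have hm : l + 3 - 1 = l + 2 := by omega
  rw [hm] at hdvd
  set A := geomN (l + 3) q with hA
  set k := A - e with hk
  have hAbig : q ^ (l + 2) + e ≤ A := by
    have := le_geomN (l + 1) (show 1 ≤ q by omega)
    have h1 : 2 ≤ q ^ (l + 1) := h2q.trans (Nat.le_self_pow (by omega) q)
    have e1 : A = geomN (l + 1) q + q ^ (l + 1) + q ^ (l + 2) := by
      rw [hA, geomN_succ (l + 2), geomN_succ (l + 1)]
    omega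
  have hkA : k + e = A := by omega
  have hkpos : 0 < k := by
    have := Nat.one_le_pow (l + 2) q (by omega)
    omega
  -- reduce the numerator modulo `k`
  have hstep1 : k ∣ e * (q ^ (l + 2) - 1) * q ^ (l + 2) := by
    have h := hdvd
    rw [← hkA, Nat.add_mul, Nat.add_mul] at h
    exact (Nat.dvd_add_right (dvd_mul_of_dvd_left (dvd_mul_right _ _) _)).1 h
  have hqD : q * (q ^ (l + 2) - 1) = (q - 1) * k + (q - 1) * (e - 1) := by
    have hs1 := sub_one_mul_geomN (l + 3) (show 1 ≤ q by omega)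
    rw [← hA, ← hkA] at hs1
    obtain ⟨e', rfl⟩ : ∃ e', e = e' + 1 := ⟨e - 1, by omega⟩
    obtain ⟨r, rfl⟩ : ∃ r, q = r + 1 := ⟨q - 1, by omega⟩
    rw [Nat.mul_sub, mul_one, ← pow_succ', ← hs1]
    simp only [Nat.add_sub_cancel]
    rw [Nat.mul_add, Nat.mul_add]
    omega
  have hstep2 : k ∣ e * (e - 1) * (q - 1) * q ^ (l + 1) := by
    have h : k ∣ e * (q * (q ^ (l + 2) - 1)) * q ^ (l + 1) := by
      have e2 : e * (q * (q ^ (l + 2) - 1)) * q ^ (l + 1) =
          e * (q ^ (l + 2) - 1) * q ^ (l + 2) := by rw [pow_succ q (l + 1)]; ring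
      rw [e2]; exact hstep1
    rw [hqD] at h
    have e3 : e * ((q - 1) * k + (q - 1) * (e - 1)) * q ^ (l + 1) =
        k * (e * (q - 1) * q ^ (l + 1)) + e * (e - 1) * (q - 1) * q ^ (l + 1) := by ring
    rw [e3] at h
    exact (Nat.dvd_add_right (dvd_mul_right _ _)).1 h
  set g := Nat.gcd k (q ^ (l + 1)) with hg
  have hstep3 : k ∣ e * (e - 1) * (q - 1) * g := dvd_mul_gcd_of_dvd_mul hstep2
  have hgk : g ∣ k := Nat.gcd_dvd_left _ _
  have hgpos : 0 < g := Nat.gcd_pos_of_pos_left _ hkpos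
  have hle : k ≤ e * (e - 1) * (q - 1) * g := by
    refine Nat.le_of_dvd ?_ hstep3
    have : 0 < e - 1 := by omega
    have : 0 < q - 1 := by omega
    positivity
  have hkq : q ^ (l + 2) ≤ k := by omega
  obtain ⟨i, hi, hgi⟩ := (Nat.dvd_prime_pow hp').1
    (show g ∣ p ^ (s * (l + 1)) by rw [pow_mul, hps]; exact Nat.gcd_dvd_right _ _)
  by_cases hqn : l + 3 ≤ q
  · -- `q ≥ n`: then `g` divides `e - 1`
    have hq16 : 16 ≤ q := by omega
    have his : i < s := by
      by_contra hcon
      push Not at hcon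
      have hdq : q ∣ k := by
        refine dvd_trans ?_ hgk
        rw [hgi, ← hps]
        exact pow_dvd_pow p hcon
      have h1 : q ∣ geomN (l + 3) q - e := hdq
      have hB : A = 1 + q * geomN (l + 2) q := by rw [hA, geomN_succ']
      have : q ∣ e - 1 := by
        have e4 : q * geomN (l + 2) q = k + (e - 1) := by omega
        exact (Nat.dvd_add_right hdq).1 (e4 ▸ dvd_mul_right q _)
      have := Nat.le_of_dvd (by omega) this
      omega
    have hgq : g ∣ q := by
      rw [hgi, ← hps]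
      exact pow_dvd_pow p his.le
    have hge : g ≤ e - 1 := by
      refine Nat.le_of_dvd (by omega) ?_
      have hB : A = 1 + q * geomN (l + 2) q := by rw [hA, geomN_succ']
      have e4 : q * geomN (l + 2) q = k + (e - 1) := by omega
      exact (Nat.dvd_add_right hgk).1 (e4 ▸ dvd_mul_of_dvd_left hgq _)
    have hle2 : k ≤ (l + 3) * (l + 2) * (q - 1) * (l + 2) := hle.trans (by
      gcongr <;> omega)
    rcases Nat.lt_or_ge l 2 with hl | hl
    · interval_cases l
      · have : 12 * q < q ^ (0 + 2) := by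
          have := Nat.mul_lt_mul_of_pos_right (show 12 < q by omega) (show 0 < q by omega)
          rw [show (0 + 2) = 2 by rfl, sq]; exact this
        omega
      · have : 36 * q < q ^ (1 + 2) := by
          have h1 : 16 * 16 ≤ q * q := Nat.mul_le_mul hq16 hq16
          have h2 := Nat.mul_lt_mul_of_pos_right (show 36 < q * q by omega) (show 0 < q by omega)
          rw [show (1 + 2) = 2 + 1 by rfl, pow_succ, sq]; exact h2
        omega
    · have h3 : (l + 3) ^ 3 ≤ q ^ (l + 1) :=
        (Nat.pow_le_pow_left hqn 3).trans (Nat.pow_le_pow_right (by omega) (by omega))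
      have : (l + 3) * (l + 2) * (q - 1) * (l + 2) < q ^ (l + 2) := by
        calc (l + 3) * (l + 2) * (q - 1) * (l + 2) < (l + 3) * (l + 3) * q * (l + 3) := by
              have h1 : (l + 3) * (l + 2) * (q - 1) * (l + 2) ≤ (l + 3) * (l + 2) * q * (l + 2) := by
                gcongr; omega
              have h2 : (l + 3) * (l + 2) * q * (l + 2) < (l + 3) * (l + 3) * q * (l + 3) := by
                gcongr <;> omega
              omega
          _ = (l + 3) ^ 3 * q := by ring
          _ ≤ q ^ (l + 1) * q := Nat.mul_le_mul_right _ h3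
          _ = q ^ (l + 2) := (pow_succ _ _).symm
      omega
  · -- `q < n`, so `n ≥ 16`
    have hl : 13 ≤ l := by omega
    set j := i / s with hj
    have hjs : j * s ≤ i := Nat.div_mul_le_self i s
    have hij : i < (j + 1) * s := by
      have := Nat.lt_div_mul_add (a := i) hs
      rw [Nat.add_mul, one_mul]; exact this
    have hqj : q ^ j ∣ k := by
      refine dvd_trans ?_ hgk
      rw [hgi, ← hps, ← pow_mul]
      exact pow_dvd_pow p (by rw [mul_comm]; exact hjs)
    have hjn : j ≤ l + 3 := by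
      have : j ≤ (s * (l + 1)) / s := Nat.div_le_div_right hi
      rw [Nat.mul_div_cancel_left _ hs] at this
      omega
    have hgeo := geomN_le_of_dvd h2q hjn hqj
    have hgle : g ≤ q * (q * e) := by
      calc g = p ^ i := hgi
        _ ≤ p ^ (s * (j + 1)) := Nat.pow_le_pow_right hp'.pos (by rw [mul_comm]; exact hij.le)
        _ = q * q ^ j := by rw [pow_mul, hps, pow_succ']
        _ ≤ q * (q * e) := by
          apply Nat.mul_le_mul_left
          rw [← sub_one_mul_geomN j (show 1 ≤ q by omega)]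
          have h1 : (q - 1) * geomN j q ≤ (q - 1) * e := Nat.mul_le_mul_left _ hgeo
          have h2 : (q - 1) * e + e = q * e := by
            rw [Nat.sub_one_mul]
            have := Nat.le_mul_of_pos_left e (show 0 < q by omega)
            omega
          omega
    have hlt : e * (e - 1) * (q - 1) * g < q ^ (l + 2) := by
      calc e * (e - 1) * (q - 1) * g ≤ e * (e - 1) * (q - 1) * (q * (q * e)) := by gcongr
        _ < e * e * q * (q * (q * e)) := by
            have h1 : e * (e - 1) * (q - 1) * (q * (q * e)) ≤ e * (e - 1) * q * (q * (q * e)) := by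
              gcongr; omega
            have h2 : e * (e - 1) * q * (q * (q * e)) < e * e * q * (q * (q * e)) := by
              have : 0 < q * (q * e) := by positivity
              have : 0 < q := by omega
              gcongr; omega
            omega
        _ = e ^ 3 * q ^ 3 := by ring
        _ ≤ (l + 3) ^ 3 * q ^ 3 := by gcongr
        _ ≤ 2 ^ (l + 3 - 4) * q ^ 3 := Nat.mul_le_mul_right _ (cube_le_two_pow _ (by omega))
        _ ≤ q ^ (l + 3 - 4) * q ^ 3 := by gcongr
        _ = q ^ (l + 2) := by rw [← pow_add]; congr 1; omega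
    omega

end CfsgLib.SlMinDegree
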