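import Mathlib
import Cfsg.Agent.SlMinDegree.Blocks

/-!
Fixed vectors of unipotent elements of `SL`, and the upper unitriangular group.
-/

set_option autoImplicit false
set_option linter.unusedSectionVars false

open scoped Classical

noncomputable section

namespace CfsgLib.SlMinDegree

open Matrix

variable {ι F : Type*} [Fintype ι] [DecidableEq ι] [Field F] [Fintype F] [DecidableEq F]

/-- The number of fixed vectors. -/
def fixN (g : Matrix.SpecialLinearGroup ι F) : ℕ :=
  (Finset.univ.filter fun x : ι → F => (g : Matrix ι ι F) *ᵥ x = x).card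

theorem fixN_one : fixN (1 : Matrix.SpecialLinearGroup ι F) = Fintype.card (ι → F) := by
  simp [fixN]

theorem fixN_le (g : Matrix.SpecialLinearGroup ι F) : fixN g ≤ Fintype.card (ι → F) :=
  Finset.card_le_univ _

theorem fixN_conj (K g : Matrix.SpecialLinearGroup ι F) : fixN (K⁻¹ * g * K) = fixN g := by
  refine Finset.card_equiv (Matrix.SpecialLinearGroup.toLin' K).toEquiv fun x => ?_
  simp only [Finset.mem_filter, Finset.mem_univ, true_and]
  show _ ↔ (g : Matrix ι ι F) *ᵥ ((K : Matrix ι ι F) *ᵥ x) = (K : Matrix ι ι F) *ᵥ x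
  rw [Matrix.SpecialLinearGroup.coe_mul, Matrix.SpecialLinearGroup.coe_mul, ← Matrix.mulVec_mulVec,
    ← Matrix.mulVec_mulVec]
  constructor
  · intro h
    have h' := congrArg (fun y => (K : Matrix ι ι F) *ᵥ y) h
    simp only [Matrix.mulVec_mulVec, ← Matrix.SpecialLinearGroup.coe_mul, ← mul_assoc,
      mul_inv_cancel, one_mul] at h'
    rw [Matrix.mulVec_mulVec, ← Matrix.SpecialLinearGroup.coe_mul]
    exact h'
  · intro h
    rw [h, Matrix.mulVec_mulVec, ← Matrix.SpecialLinearGroup.coe_mul, inv_mul_cancel,
      Matrix.SpecialLinearGroup.coe_one, Matrix.one_mulVec]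

variable {ι' : Type*} [Fintype ι'] [DecidableEq ι']

theorem fixN_emb (M : Matrix.SpecialLinearGroup ι' F) :
    fixN (emb M : Matrix.SpecialLinearGroup (Unit ⊕ ι') F) = Fintype.card F * fixN M := by
  rw [fixN, fixN, ← Finset.card_univ, ← Finset.card_product]
  refine Finset.card_equiv ((Equiv.sumArrowEquivProdArrow Unit ι' F).trans
    ((Equiv.funUnique Unit F).prodCongr (Equiv.refl _))) fun x => ?_
  simp only [Finset.mem_filter, Finset.mem_univ, true_and, Finset.mem_product]
  show ((blk 0 M : Matrix.SpecialLinearGroup (Unit ⊕ ι') F) : Matrix _ _ F) *ᵥ x = x ↔ _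
  rw [blk_mulVec_inl]
  constructor
  · intro h
    funext i
    exact congrFun h (Sum.inr i)
  · intro h
    funext a
    rcases a with u | i
    · simp
    · exact congrFun h i

theorem fixN_blk (v y1 : ι' → F) (M : Matrix.SpecialLinearGroup ι' F)
    (hy : (M : Matrix ι' ι' F) *ᵥ y1 = y1) (hvy : v ⬝ᵥ y1 = 1) :
    fixN (blk v M) = fixN M := by
  refine Finset.card_bij' (fun x _ => x ∘ Sum.inr + x (Sum.inl ()) • y1)
    (fun y _ => Sum.elim (fun _ => v ⬝ᵥ y) (y - (v ⬝ᵥ y) • y1)) ?_ ?_ ?_ ?_
  · intro x hx
    simp only [Finset.mem_filter, Finset.mem_univ, true_and, blk_mulVec_inl] at hx ⊢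
    have h2 : (M : Matrix ι' ι' F) *ᵥ (x ∘ Sum.inr) = x ∘ Sum.inr := by
      funext i; exact congrFun hx (Sum.inr i)
    rw [Matrix.mulVec_add, Matrix.mulVec_smul, h2, hy]
  · intro y hy'
    simp only [Finset.mem_filter, Finset.mem_univ, true_and, blk_mulVec_inl] at hy' ⊢
    funext a
    have hr : (Sum.elim (fun _ => v ⬝ᵥ y) (y - (v ⬝ᵥ y) • y1) : Unit ⊕ ι' → F) ∘ Sum.inr =
        y - (v ⬝ᵥ y) • y1 := Sum.elim_comp_inr _ _
    rcases a with u | i
    · simp only [Sum.elim_inl]
      rw [hr, dotProduct_sub, dotProduct_smul, hvy, smul_eq_mul, mul_one, sub_self, add_zero]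
    · simp only [Sum.elim_inr]
      rw [hr, Matrix.mulVec_sub, Matrix.mulVec_smul, hy', hy]
  · intro x hx
    simp only [Finset.mem_filter, Finset.mem_univ, true_and, blk_mulVec_inl] at hx
    have h1 : v ⬝ᵥ (x ∘ Sum.inr) = 0 := by
      have := congrFun hx (Sum.inl ())
      simpa using this
    have h3 : v ⬝ᵥ (x ∘ Sum.inr + x (Sum.inl ()) • y1) = x (Sum.inl ()) := by
      rw [dotProduct_add, dotProduct_smul, h1, hvy, zero_add, smul_eq_mul, mul_one]
    funext a
    rcases a with u | i
    · simpa using h3
    · simp [h3]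
  · intro y _
    simp

theorem nilpotent_of_blk {v : ι' → F} {M : Matrix.SpecialLinearGroup ι' F}
    (h : IsNilpotent ((blk v M : Matrix (Unit ⊕ ι') (Unit ⊕ ι') F) - 1)) :
    IsNilpotent ((M : Matrix ι' ι' F) - 1) := by
  obtain ⟨j, hj⟩ := h
  have key : ∀ i : ℕ, ∃ A B, ((blk v M : Matrix (Unit ⊕ ι') (Unit ⊕ ι') F) - 1) ^ i =
      fromBlocks A B 0 (((M : Matrix ι' ι' F) - 1) ^ i) := by
    intro i
    induction i with
    | zero => exact ⟨1, 0, by rw [pow_zero, pow_zero, fromBlocks_one]⟩
    | succ i ih =>
      obtain ⟨A, B, h⟩ := ih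
      have e : ((blk v M : Matrix (Unit ⊕ ι') (Unit ⊕ ι') F) - 1) =
          fromBlocks 0 (replicateRow Unit v) 0 ((M : Matrix ι' ι' F) - 1) := by
        show fromBlocks _ _ _ _ - 1 = _
        ext a b
        rcases a with u | x <;> rcases b with u' | y <;> simp [Matrix.one_apply]
      refine ⟨0, A * replicateRow Unit v + B * ((M : Matrix ι' ι' F) - 1), ?_⟩
      rw [pow_succ, h, e, fromBlocks_multiply, pow_succ]
      simp only [Matrix.zero_mul, zero_add, Matrix.mul_zero]
  obtain ⟨A, B, h'⟩ := key j
  rw [hj] at h'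
  exact ⟨j, by
    ext a b
    exact (congrFun (congrFun h' (Sum.inr a)) (Sum.inr b)).symm⟩

theorem exists_vec_of_nilpotent {N : Matrix ι ι F} (h : IsNilpotent N) (h0 : N ≠ 0) :
    ∃ e x : ι → F, e ≠ 0 ∧ N *ᵥ e = 0 ∧ N *ᵥ x = e := by
  have hex : ∃ j, N ^ j = 0 := h
  have hj : N ^ Nat.find hex = 0 := Nat.find_spec hex
  have hmin : ∀ i < Nat.find hex, N ^ i ≠ 0 := fun i hi => Nat.find_min hex hi
  generalize Nat.find hex = j at hj hmin
  haveI : Nonempty ι := by
    by_contra hne
    rw [not_nonempty_iff] at hne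
    exact h0 (Subsingleton.elim _ _)
  rcases j with _ | _ | j
  · simp at hj
  · exact absurd (by simpa using hj) h0
  · obtain ⟨y, hy⟩ : ∃ y, (N ^ (j + 1)) *ᵥ y ≠ 0 := by
      by_contra hcon
      push Not at hcon
      exact hmin (j + 1) (by omega) (Matrix.ext_of_mulVec_single fun i => by rw [hcon, Matrix.zero_mulVec])
    refine ⟨(N ^ (j + 1)) *ᵥ y, (N ^ j) *ᵥ y, hy, ?_, ?_⟩
    · rw [Matrix.mulVec_mulVec, ← pow_succ', hj, Matrix.zero_mulVec]
    · rw [Matrix.mulVec_mulVec, ← pow_succ']

variable {N : ℕ} (σ : ι ≃ Fin N)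

/-- Upper unitriangular for the order given by `σ`. -/
def IsUpper (g : Matrix.SpecialLinearGroup ι F) : Prop :=
  ∀ a b, (a = b → (g : Matrix ι ι F) a b = 1) ∧ (σ b < σ a → (g : Matrix ι ι F) a b = 0)

theorem isUpper_one : IsUpper σ (1 : Matrix.SpecialLinearGroup ι F) := fun a b =>
  ⟨fun h => by subst h; simp, fun h => by
    have : a ≠ b := fun e => by subst e; exact lt_irrefl _ h
    simp [this]⟩

theorem isUpper_mul {g g' : Matrix.SpecialLinearGroup ι F} (hg : IsUpper σ g) (hg' : IsUpper σ g') :
    IsUpper σ (g * g') := by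
  intro a b
  rw [Matrix.SpecialLinearGroup.coe_mul, Matrix.mul_apply]
  constructor
  · rintro rfl
    rw [Finset.sum_eq_single a]
    · rw [(hg a a).1 rfl, (hg' a a).1 rfl, one_mul]
    · intro x _ hx
      rcases lt_or_gt_of_ne (σ.injective.ne hx) with h | h
      · rw [(hg a x).2 h, zero_mul]
      · rw [(hg' x a).2 h, mul_zero]
    · simp
  · intro h
    refine Finset.sum_eq_zero fun x _ => ?_
    rcases lt_or_ge (σ x) (σ a) with h' | h'
    · rw [(hg a x).2 h', zero_mul]
    · rw [(hg' x b).2 (lt_of_lt_of_le h h'), mul_zero]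

/-- The upper unitriangular subgroup. -/
def upperGroup : Subgroup (Matrix.SpecialLinearGroup ι F) where
  carrier := {g | IsUpper σ g}
  one_mem' := isUpper_one σ
  mul_mem' := isUpper_mul σ
  inv_mem' := by
    intro g hg
    have key : ∀ i : ℕ, IsUpper σ (g ^ i) := by
      intro i
      induction i with
      | zero => rw [pow_zero]; exact isUpper_one σ
      | succ i ih => rw [pow_succ]; exact isUpper_mul σ ih hg
    have : g⁻¹ = g ^ (orderOf g - 1) := by
      rw [inv_eq_iff_mul_eq_one, ← pow_succ', Nat.sub_add_cancel (orderOf_pos g), pow_orderOf_eq_one]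
    show IsUpper σ g⁻¹
    rw [this]
    exact key _

theorem nilpotent_of_upper {g : Matrix.SpecialLinearGroup ι F} (hg : IsUpper σ g) :
    IsNilpotent ((g : Matrix ι ι F) - 1) := by
  refine ⟨N, ?_⟩
  have key : ∀ (i : ℕ) a b, (σ b : ℕ) < (σ a : ℕ) + i → (((g : Matrix ι ι F) - 1) ^ i) a b = 0 := by
    intro i
    induction i with
    | zero =>
      intro a b h
      rw [pow_zero, Matrix.one_apply_ne]
      intro e
      subst e
      omega
    | succ i ih =>
      intro a b h
      rw [pow_succ, Matrix.mul_apply]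
      refine Finset.sum_eq_zero fun x _ => ?_
      rcases Nat.lt_or_ge (σ x : ℕ) ((σ a : ℕ) + i) with h' | h'
      · rw [ih a x h', zero_mul]
      · have hxb : (σ b : ℕ) ≤ (σ x : ℕ) := by omega
        rw [Matrix.sub_apply]
        rcases eq_or_ne x b with rfl | hne
        · rw [(hg x x).1 rfl, Matrix.one_apply_eq, sub_self, mul_zero]
        · have : σ b < σ x := lt_of_le_of_ne hxb (fun e => hne (σ.injective e).symm)
          rw [(hg x b).2 this, Matrix.one_apply_ne hne, sub_zero, mul_zero]
  ext a b
  rw [key N a b (by have := (σ b).isLt; omega)]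
  rfl

theorem sum_fixN_upper :
    ∃ c : ℕ, c ≤ 1 + Fintype.card ι * (Fintype.card F - 1) ∧
      ∑ g : upperGroup (F := F) σ, fixN (g : Matrix.SpecialLinearGroup ι F) =
        c * Fintype.card (upperGroup (F := F) σ) := by
  letI : MulAction (upperGroup (F := F) σ) (ι → F) :=
    { smul := fun g x => ((g : Matrix.SpecialLinearGroup ι F) : Matrix ι ι F) *ᵥ x
      one_smul := fun x => Matrix.one_mulVec x
      mul_smul := fun g h x => by
        show _ *ᵥ x = _ *ᵥ (_ *ᵥ x)
        rw [Subgroup.coe_mul, Matrix.SpecialLinearGroup.coe_mul, Matrix.mulVec_mulVec] }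
  letI : Fintype (Quotient (MulAction.orbitRel (upperGroup (F := F) σ) (ι → F))) := Fintype.ofFinite _
  refine ⟨Fintype.card (Quotient (MulAction.orbitRel (upperGroup (F := F) σ) (ι → F))), ?_, ?_⟩
  · let rep : Option (ι × Fˣ) → Quotient (MulAction.orbitRel (upperGroup (F := F) σ) (ι → F)) :=
      fun o => Quotient.mk _ (o.elim 0 fun p => Pi.single p.1 (p.2 : F))
    have hsurj : Function.Surjective rep := by
      intro c
      induction c using Quotient.inductionOn with
      | h x =>
        by_cases hx : x = 0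
        · exact ⟨none, by subst hx; rfl⟩
        have hne : (Finset.univ.filter fun a => x a ≠ 0).Nonempty := by
          obtain ⟨a, ha⟩ := Function.ne_iff.1 hx
          exact ⟨a, by simpa using ha⟩
        obtain ⟨i, hi, hmax⟩ := Finset.exists_max_image _ σ hne
        simp only [Finset.mem_filter, Finset.mem_univ, true_and] at hi hmax
        refine ⟨some (i, Units.mk0 (x i) hi), ?_⟩
        apply Quotient.sound
        show Pi.single i (x i) ∈ MulAction.orbit (upperGroup (F := F) σ) x
        set u : ι → F := (x i)⁻¹ • x - Pi.single i 1 with hu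
        have hui : u i = 0 := by simp [hu, hi]
        have hdet : (1 + replicateCol Unit u * replicateRow Unit (Pi.single i (1 : F))).det = 1 := by
          rw [Matrix.det_one_add_replicateCol_mul_replicateRow, single_dotProduct, hui]
          simp
        set g : Matrix.SpecialLinearGroup ι F := ⟨_, hdet⟩
        have happ : ∀ a b, (g : Matrix ι ι F) a b =
            (1 : Matrix ι ι F) a b + u a * (Pi.single i (1 : F) : ι → F) b := fun a b => by
          show (1 + replicateCol Unit u * replicateRow Unit (Pi.single i (1 : F)) : Matrix ι ι F) a b = _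
          simp [Matrix.mul_apply, replicateCol, replicateRow]
        have hg : IsUpper σ g := by
          intro a b
          rw [happ]
          constructor
          · rintro rfl
            rcases eq_or_ne a i with rfl | h
            · simp [hui]
            · simp [Pi.single_apply, h]
          · intro h
            have hab : a ≠ b := fun e => by subst e; exact lt_irrefl _ h
            rcases eq_or_ne b i with rfl | hbi
            · have hxa : x a = 0 := by
                by_contra hxa
                exact absurd (hmax a hxa) (not_le.2 h)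
              simp [hu, hab, hxa]
            · simp [hab, hbi]
        have hgx : (g : Matrix ι ι F) *ᵥ Pi.single i (x i) = x := by
          funext a
          rw [Matrix.mulVec, dotProduct_single, happ]
          simp only [hu, Pi.sub_apply, Pi.smul_apply, smul_eq_mul]
          rcases eq_or_ne a i with rfl | h
          · simp [hi]
          · simp [h]
            field_simp
        refine ⟨(⟨g, hg⟩ : upperGroup (F := F) σ)⁻¹, ?_⟩
        show (⟨g, hg⟩ : upperGroup (F := F) σ)⁻¹ • x = Pi.single i (x i)
        rw [inv_smul_eq_iff]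
        exact hgx.symm
    calc Fintype.card (Quotient (MulAction.orbitRel (upperGroup (F := F) σ) (ι → F)))
        ≤ Fintype.card (Option (ι × Fˣ)) := Fintype.card_le_of_surjective rep hsurj
      _ = 1 + Fintype.card ι * (Fintype.card F - 1) := by
          rw [Fintype.card_option, Fintype.card_prod, Fintype.card_units, add_comm]
  · rw [← MulAction.sum_card_fixedBy_eq_card_orbits_mul_card_group]
    refine Finset.sum_congr rfl fun g _ => ?_
    rw [fixN, ← Fintype.card_subtype]
    exact Fintype.card_congr (Equiv.refl _)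

end CfsgLib.SlMinDegree
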