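import Mathlib
import Cfsg.Agent.SlMinDegree.Stab
import Cfsg.Agent.SlMinDegree.Fix

/-!
The character on unipotent elements, and a lower bound from the unitriangular average.
-/

set_option autoImplicit false
set_option linter.unusedSectionVars false

open scoped Classical

noncomputable section

namespace CfsgLib.SlMinDegree

open Matrix

variable {F : Type*} [Field F] [Fintype F] [DecidableEq F] {l k : ℕ}
variable (R : SLG F l →* Matrix (Fin k) (Fin k) ℂ) {ψ : AddChar F ℂ}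

/-- The ambient matrices. -/
abbrev MatG (F : Type*) (l : ℕ) := Matrix (Unit ⊕ (Unit ⊕ Fin l)) (Unit ⊕ (Unit ⊕ Fin l)) F

local notation "SLM" => Matrix.SpecialLinearGroup (Unit ⊕ Fin l) F

theorem trace_blk_eq (hψ : ψ 1 ≠ 1) (h1 : (wproj R ψ (w0 F l)).trace = 1) (hl : 1 ≤ l)
    (hq2 : 2 ≤ l ∨ ¬ (Fintype.card F - 1) ∣ 3) (hq3 : l ≠ 2 ∨ ¬ (Fintype.card F - 1) ∣ 2)
    (v : Unit ⊕ Fin l → F) (M : SLM) :
    (R (blk v M)).trace = (wproj R ψ 0 * R (emb M)).trace - 1 +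
      ∑ w ∈ Finset.univ.filter (fun w : Unit ⊕ Fin l → F =>
        (M : Matrix (Unit ⊕ Fin l) (Unit ⊕ Fin l) F) *ᵥ w = w), ψ (v ⬝ᵥ w) := by
  rw [trace_blk R hψ, Finset.sum_filter,
    ← Finset.add_sum_erase _ _ (Finset.mem_univ (0 : Unit ⊕ Fin l → F))]
  conv_rhs => rw [← Finset.add_sum_erase _ _ (Finset.mem_univ (0 : Unit ⊕ Fin l → F))]
  rw [dotProduct_zero, AddChar.map_zero_eq_one, one_mul, if_pos (Matrix.mulVec_zero _),
    show ∀ (a b : ℂ), a - 1 + (1 + b) = a + b from fun a b => by ring]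
  congr 1
  refine Finset.sum_congr rfl fun w hw => ?_
  rw [trace_wproj_emb R hψ h1 hl hq2 hq3 (Finset.ne_of_mem_erase hw) M]
  split_ifs <;> simp

theorem isNilpotent_conj_sub_one {ι : Type*} [Fintype ι] [DecidableEq ι]
    (K u : Matrix.SpecialLinearGroup ι F) (h : IsNilpotent ((u : Matrix ι ι F) - 1)) :
    IsNilpotent (((K⁻¹ * u * K : Matrix.SpecialLinearGroup ι F) : Matrix ι ι F) - 1) := by
  obtain ⟨j, hj⟩ := h
  refine ⟨j, ?_⟩
  have hKK : ((K⁻¹ : Matrix.SpecialLinearGroup ι F) : Matrix ι ι F) * (K : Matrix ι ι F) = 1 := by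
    rw [← Matrix.SpecialLinearGroup.coe_mul, inv_mul_cancel, Matrix.SpecialLinearGroup.coe_one]
  have hKK' : (K : Matrix ι ι F) * ((K⁻¹ : Matrix.SpecialLinearGroup ι F) : Matrix ι ι F) = 1 := by
    rw [← Matrix.SpecialLinearGroup.coe_mul, mul_inv_cancel, Matrix.SpecialLinearGroup.coe_one]
  have e : ((K⁻¹ * u * K : Matrix.SpecialLinearGroup ι F) : Matrix ι ι F) - 1 =
      ((K⁻¹ : Matrix.SpecialLinearGroup ι F) : Matrix ι ι F) * ((u : Matrix ι ι F) - 1) *
        (K : Matrix ι ι F) := by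
    rw [Matrix.SpecialLinearGroup.coe_mul, Matrix.SpecialLinearGroup.coe_mul, mul_sub, sub_mul,
      mul_one, hKK]
  rw [e]
  have key : ∀ i : ℕ, (((K⁻¹ : Matrix.SpecialLinearGroup ι F) : Matrix ι ι F) * ((u : Matrix ι ι F) - 1) *
      (K : Matrix ι ι F)) ^ i = ((K⁻¹ : Matrix.SpecialLinearGroup ι F) : Matrix ι ι F) *
      ((u : Matrix ι ι F) - 1) ^ i * (K : Matrix ι ι F) := by
    intro i
    induction i with
    | zero => rw [pow_zero, pow_zero, mul_one, hKK]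
    | succ i ih =>
      rw [pow_succ, ih, pow_succ]
      simp only [mul_assoc]
      rw [← mul_assoc (K : Matrix ι ι F), hKK', one_mul]
  rw [key, hj, mul_zero, zero_mul]

/-- On unipotent elements the character is affine in the number of fixed vectors. -/
theorem trace_unipotent (hψ : ψ 1 ≠ 1) (h1 : (wproj R ψ (w0 F l)).trace = 1) (hl : 1 ≤ l)
    (hq2 : 2 ≤ l ∨ ¬ (Fintype.card F - 1) ∣ 3) (hq3 : l ≠ 2 ∨ ¬ (Fintype.card F - 1) ∣ 2) :
    ∀ u : SLG F l, IsNilpotent ((u : Matrix (Unit ⊕ (Unit ⊕ Fin l)) (Unit ⊕ (Unit ⊕ Fin l)) F) - 1) →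
      ((Fintype.card F : ℂ) - 1) * ((R u).trace - k) =
        (fixN u : ℂ) - (Fintype.card (Unit ⊕ (Unit ⊕ Fin l) → F) : ℂ) := by
  suffices h : ∀ (d : ℕ) (u : SLG F l), Fintype.card (Unit ⊕ (Unit ⊕ Fin l) → F) - fixN u = d →
      IsNilpotent ((u : Matrix (Unit ⊕ (Unit ⊕ Fin l)) (Unit ⊕ (Unit ⊕ Fin l)) F) - 1) →
      ((Fintype.card F : ℂ) - 1) * ((R u).trace - k) =
        (fixN u : ℂ) - (Fintype.card (Unit ⊕ (Unit ⊕ Fin l) → F) : ℂ) from fun u => h _ u rfl
  intro d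
  induction d using Nat.strong_induction_on with
  | _ d ih =>
  intro u hd hu
  by_cases hu1 : u = 1
  · subst hu1
    rw [fixN_one, map_one, Matrix.trace_one, Fintype.card_fin, sub_self, mul_zero, sub_self]
  have hne : (u : Matrix (Unit ⊕ (Unit ⊕ Fin l)) (Unit ⊕ (Unit ⊕ Fin l)) F) - 1 ≠ 0 :=
    fun h => hu1 (Subtype.ext (sub_eq_zero.1 h))
  obtain ⟨e, x, he, hNe, hNx⟩ := exists_vec_of_nilpotent hu hne
  obtain ⟨K, hK⟩ := exists_sl_mulVec_eq (F := F) (ι := Unit ⊕ (Unit ⊕ Fin l)) (by simp; omega)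
    (v := Pi.single (Sum.inl ()) 1) (by simp) he
  set u' := K⁻¹ * u * K with hu'
  have hKi : ((K⁻¹ : SLG F l) : MatG F l) *ᵥ e = Pi.single (Sum.inl ()) 1 := by
    rw [← hK, Matrix.mulVec_mulVec, ← Matrix.SpecialLinearGroup.coe_mul, inv_mul_cancel,
      Matrix.SpecialLinearGroup.coe_one, Matrix.one_mulVec]
  have hfix : (u' : MatG F l) *ᵥ Pi.single (Sum.inl ()) 1 = Pi.single (Sum.inl ()) 1 := by
    have : (u : MatG F l) *ᵥ e = e := by
      rw [Matrix.sub_mulVec, Matrix.one_mulVec, sub_eq_zero] at hNe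
      exact hNe
    rw [hu', Matrix.SpecialLinearGroup.coe_mul, Matrix.SpecialLinearGroup.coe_mul,
      ← Matrix.mulVec_mulVec, ← Matrix.mulVec_mulVec, hK, this, hKi]
  obtain ⟨v, M, hvM⟩ := exists_blk hfix
  set x' := ((K⁻¹ : SLG F l) : MatG F l) *ᵥ x
  have hx' : (u' : MatG F l) *ᵥ x' = x' + Pi.single (Sum.inl ()) 1 := by
    have hux : (u : MatG F l) *ᵥ x = x + e := by
      rw [Matrix.sub_mulVec, Matrix.one_mulVec, sub_eq_iff_eq_add] at hNx
      rw [hNx, add_comm]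
    have hKx : (K : MatG F l) *ᵥ x' = x := by
      rw [Matrix.mulVec_mulVec, ← Matrix.SpecialLinearGroup.coe_mul, mul_inv_cancel,
        Matrix.SpecialLinearGroup.coe_one, Matrix.one_mulVec]
    rw [hu', Matrix.SpecialLinearGroup.coe_mul, Matrix.SpecialLinearGroup.coe_mul,
      ← Matrix.mulVec_mulVec, ← Matrix.mulVec_mulVec, hKx, hux, Matrix.mulVec_add, hKi]
  rw [hvM, blk_mulVec_inl] at hx'
  set y1 : Unit ⊕ Fin l → F := x' ∘ Sum.inr
  have hvy : v ⬝ᵥ y1 = 1 := by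
    have := congrFun hx' (Sum.inl ())
    simpa using this
  have hMy : (M : Matrix (Unit ⊕ Fin l) (Unit ⊕ Fin l) F) *ᵥ y1 = y1 := by
    funext i
    have := congrFun hx' (Sum.inr i)
    simpa [y1] using this
  have hfu : fixN u = fixN M := by
    rw [← fixN_conj K u, ← hu', hvM, fixN_blk v y1 M hMy hvy]
  have htru : (R u).trace = (R (blk v M)).trace := by
    rw [← hvM, hu', map_mul, map_mul, Matrix.trace_mul_comm, ← mul_assoc, ← map_mul,
      mul_inv_cancel, map_one, one_mul]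
  have hsum0 : ∑ w ∈ Finset.univ.filter (fun w : Unit ⊕ Fin l → F =>
        (M : Matrix (Unit ⊕ Fin l) (Unit ⊕ Fin l) F) *ᵥ w = w), ψ (v ⬝ᵥ w) = 0 := by
    set S := Finset.univ.filter (fun w : Unit ⊕ Fin l → F =>
        (M : Matrix (Unit ⊕ Fin l) (Unit ⊕ Fin l) F) *ᵥ w = w)
    have h2 : ∑ w ∈ S, ψ (v ⬝ᵥ w) = ψ 1 * ∑ w ∈ S, ψ (v ⬝ᵥ w) := by
      rw [Finset.mul_sum]
      refine Finset.sum_equiv (Equiv.addLeft (-y1)) (fun w => ?_) (fun w _ => ?_)
      · simp only [S, Finset.mem_filter, Finset.mem_univ, true_and, Equiv.coe_addLeft,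
          Matrix.mulVec_add, Matrix.mulVec_neg, hMy, add_right_inj]
      · rw [Equiv.coe_addLeft, dotProduct_add, dotProduct_neg, hvy, ← AddChar.map_add_eq_mul,
          add_neg_cancel_left]
    by_contra h
    exact hψ (mul_right_cancel₀ h (by rw [← h2, one_mul]))
  have hfemb : fixN (emb M : SLG F l) = Fintype.card F * fixN M := fixN_emb M
  have hMpos : 0 < fixN M := Finset.card_pos.2 ⟨0, by simp⟩
  have hq1 : 2 ≤ Fintype.card F := Fintype.one_lt_card
  have hnil' : IsNilpotent (((emb M : SLG F l) : MatG F l) - 1) := by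
    have h := isNilpotent_conj_sub_one K u hu
    rw [← hu', hvM] at h
    obtain ⟨j, hj⟩ := nilpotent_of_blk h
    have e2 : ((emb M : SLG F l) : MatG F l) - 1 =
        fromBlocks 0 0 0 ((M : Matrix (Unit ⊕ Fin l) (Unit ⊕ Fin l) F) - 1) := by
      show fromBlocks _ _ _ _ - 1 = _
      ext a b
      rcases a with u₁ | x₁ <;> rcases b with u₂ | x₂ <;> simp [Matrix.one_apply]
    refine ⟨j + 1, ?_⟩
    have key : ∀ i : ℕ, (fromBlocks (0 : Matrix Unit Unit F) 0 0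
        ((M : Matrix (Unit ⊕ Fin l) (Unit ⊕ Fin l) F) - 1)) ^ (i + 1) =
        fromBlocks 0 0 0 (((M : Matrix (Unit ⊕ Fin l) (Unit ⊕ Fin l) F) - 1) ^ (i + 1)) := by
      intro i
      induction i with
      | zero => rw [zero_add, pow_one, pow_one]
      | succ i ih =>
        rw [pow_succ, ih, fromBlocks_multiply, pow_succ _ (i + 1)]
        simp
    rw [e2, key, pow_succ, hj, zero_mul, fromBlocks_zero]
  have hlt : Fintype.card (Unit ⊕ (Unit ⊕ Fin l) → F) - fixN (emb M : SLG F l) < d := by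
    have h2 : 2 * fixN M ≤ Fintype.card F * fixN M := Nat.mul_le_mul_right _ hq1
    have h3 := fixN_le (emb M : SLG F l)
    omega
  have hI := ih _ hlt (emb M) rfl hnil'
  have hemb : (R (emb M)).trace = (wproj R ψ 0 * R (emb M)).trace - 1 + (fixN M : ℂ) := by
    conv_lhs => rw [show (emb M : SLG F l) = blk 0 M from rfl, trace_blk_eq R hψ h1 hl hq2 hq3]
    simp [fixN, show blk (0 : Unit ⊕ Fin l → F) M = emb M from rfl]
  rw [hfu, htru, trace_blk_eq R hψ h1 hl hq2 hq3, hsum0]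
  rw [hfemb, hemb, Nat.cast_mul] at hI
  linear_combination hI

theorem trace_group_average_mul (U : Subgroup (SLG F l)) :
    ∃ a : ℕ, ∑ g : U, (R (g : SLG F l)).trace = (Fintype.card U : ℂ) * a := by
  have hne : (Fintype.card U : ℂ) ≠ 0 := Nat.cast_ne_zero.2 Fintype.card_ne_zero
  set E : Matrix (Fin k) (Fin k) ℂ := (Fintype.card U : ℂ)⁻¹ • ∑ g : U, R (g : SLG F l) with hE
  have habs : ∀ h : U, R (h : SLG F l) * E = E := fun h => by
    rw [hE, mul_smul_comm, Finset.mul_sum]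
    congr 1
    refine Fintype.sum_equiv (Equiv.mulLeft h) _ _ fun g => ?_
    simp
  have hEE : E * E = E := by
    nth_rewrite 1 [hE]
    rw [smul_mul_assoc, Finset.sum_mul, Finset.sum_congr rfl fun h _ => habs h, Finset.sum_const,
      Finset.card_univ, ← Nat.cast_smul_eq_nsmul ℂ, smul_smul, inv_mul_cancel₀ hne, one_smul]
  obtain ⟨a, ha, -⟩ := exists_natCast_trace hEE
  refine ⟨a, ?_⟩
  rw [← ha, hE, Matrix.trace_smul, Matrix.trace_sum, smul_eq_mul, ← mul_assoc, mul_inv_cancel₀ hne,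
    one_mul]

/-- The degree is at least `(q^n - 1)/(q - 1) - n`. -/
theorem degree_ge (hψ : ψ 1 ≠ 1) (h1 : (wproj R ψ (w0 F l)).trace = 1) (hl : 1 ≤ l)
    (hq2 : 2 ≤ l ∨ ¬ (Fintype.card F - 1) ∣ 3) (hq3 : l ≠ 2 ∨ ¬ (Fintype.card F - 1) ∣ 2) :
    Fintype.card F ^ (l + 2) ≤ (Fintype.card F - 1) * k + (1 + (l + 2) * (Fintype.card F - 1)) := by
  have hcι : Fintype.card (Unit ⊕ (Unit ⊕ Fin l)) = l + 2 := by simp; omega
  set σ := Fintype.equivFinOfCardEq hcι
  obtain ⟨a, ha⟩ := trace_group_average_mul R (upperGroup (F := F) σ)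
  obtain ⟨c, hc, hsum⟩ := sum_fixN_upper (F := F) σ
  have hne : (Fintype.card (upperGroup (F := F) σ) : ℂ) ≠ 0 :=
    Nat.cast_ne_zero.2 Fintype.card_ne_zero
  have h : ∑ g : upperGroup (F := F) σ, ((Fintype.card F : ℂ) - 1) * ((R (g : SLG F l)).trace - k) =
      ∑ g : upperGroup (F := F) σ, ((fixN (g : SLG F l) : ℂ) -
        (Fintype.card (Unit ⊕ (Unit ⊕ Fin l) → F) : ℂ)) :=
    Finset.sum_congr rfl fun g _ =>
      trace_unipotent R hψ h1 hl hq2 hq3 _ (nilpotent_of_upper σ g.2)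
  have hsum' : ∑ g : upperGroup (F := F) σ, (fixN (g : SLG F l) : ℂ) =
      (c : ℂ) * Fintype.card (upperGroup (F := F) σ) := by
    rw [← Nat.cast_sum, hsum, Nat.cast_mul]
  rw [← Finset.mul_sum, Finset.sum_sub_distrib, Finset.sum_sub_distrib, ha, hsum',
    Finset.sum_const, Finset.sum_const, Finset.card_univ, nsmul_eq_mul, nsmul_eq_mul,
    Fintype.card_fun, hcι] at h
  have h2 : ((Fintype.card F : ℂ) - 1) * a + (Fintype.card F : ℂ) ^ (l + 2) =
      (c : ℂ) + ((Fintype.card F : ℂ) - 1) * k := by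
    apply mul_left_cancel₀ hne
    rw [Nat.cast_pow] at h
    linear_combination h
  have hq1 : 1 ≤ Fintype.card F := Fintype.card_pos
  rw [hcι] at hc
  rw [show ((Fintype.card F : ℂ) - 1) = (((Fintype.card F - 1 : ℕ)) : ℂ) by
    rw [Nat.cast_sub hq1, Nat.cast_one]] at h2
  norm_cast at h2
  omega

end CfsgLib.SlMinDegree
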