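import Mathlib
import Cfsg.Agent.SlMinDegree.Formula
import Cfsg.Agent.SlMinDegree.Arith

/-!
The smallest degree of a representation of `SL_n` with only scalar intertwiners.
-/

set_option autoImplicit false
set_option linter.unusedSectionVars false

open scoped Classical

noncomputable section

namespace CfsgLib.SlMinDegree

open Matrix

variable {F : Type*} [Field F] [Fintype F] [DecidableEq F]

section Tv

variable {ι : Type*} [Fintype ι] [DecidableEq ι]

/-- A transvection. -/
def IsTv (g : Matrix.SpecialLinearGroup ι F) : Prop :=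
  ∃ a f : ι → F, a ≠ 0 ∧ f ≠ 0 ∧ f ⬝ᵥ a = 0 ∧ (g : Matrix ι ι F) = 1 + vecMulVec a f

variable (ι F) in
/-- The transvections. -/
def tvSet : Finset (Matrix.SpecialLinearGroup ι F) := Finset.univ.filter IsTv

theorem isTv_mulVec {g : Matrix.SpecialLinearGroup ι F} {a f : ι → F}
    (h : (g : Matrix ι ι F) = 1 + vecMulVec a f) (x : ι → F) :
    (g : Matrix ι ι F) *ᵥ x = x + (f ⬝ᵥ x) • a := by
  rw [h, Matrix.add_mulVec, Matrix.one_mulVec, Matrix.vecMulVec_mulVec, op_smul_eq_smul]

theorem isTv_conj (K : Matrix.SpecialLinearGroup ι F) {g : Matrix.SpecialLinearGroup ι F}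
    (h : IsTv g) : IsTv (K * g * K⁻¹) := by
  obtain ⟨a, f, ha, hf, hfa, hg⟩ := h
  set Ki : Matrix ι ι F := ((K⁻¹ : Matrix.SpecialLinearGroup ι F) : Matrix ι ι F) with hKi
  have h1 : Ki * (K : Matrix ι ι F) = 1 := by
    rw [hKi, ← Matrix.SpecialLinearGroup.coe_mul, inv_mul_cancel, Matrix.SpecialLinearGroup.coe_one]
  have h2 : (K : Matrix ι ι F) * Ki = 1 := by
    rw [hKi, ← Matrix.SpecialLinearGroup.coe_mul, mul_inv_cancel, Matrix.SpecialLinearGroup.coe_one]
  refine ⟨(K : Matrix ι ι F) *ᵥ a, f ᵥ* Ki, ?_, ?_, ?_, ?_⟩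
  · intro h
    apply ha
    have := congrArg (fun y => Ki *ᵥ y) h
    simpa [Matrix.mulVec_mulVec, h1] using this
  · intro h
    apply hf
    have := congrArg (fun y => y ᵥ* (K : Matrix ι ι F)) h
    simpa [Matrix.vecMul_vecMul, h1] using this
  · rw [← Matrix.dotProduct_mulVec, Matrix.mulVec_mulVec, h1, Matrix.one_mulVec, hfa]
  · rw [Matrix.SpecialLinearGroup.coe_mul, Matrix.SpecialLinearGroup.coe_mul, ← hKi, hg,
      ← Matrix.mul_vecMulVec, ← Matrix.vecMulVec_mul, mul_add, add_mul, mul_one, h2, mul_assoc]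

theorem card_perp {a : ι → F} (ha : a ≠ 0) :
    Fintype.card F * (Finset.univ.filter fun f : ι → F => f ⬝ᵥ a = 0).card =
      Fintype.card (ι → F) := by
  obtain ⟨i, hi⟩ := Function.ne_iff.1 ha
  set y : ι → F := Pi.single i (a i)⁻¹ with hy
  have hya : y ⬝ᵥ a = 1 := by rw [hy, single_dotProduct, inv_mul_cancel₀ hi]
  rw [← Finset.card_univ, ← Finset.card_univ, ← Finset.card_product]
  refine Finset.card_bij' (fun p _ => p.2 + p.1 • y) (fun f _ => (f ⬝ᵥ a, f - (f ⬝ᵥ a) • y))
    ?_ ?_ ?_ ?_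
  · intro p _; simp
  · intro f _
    simp [sub_dotProduct, hya]
  · rintro ⟨c, f⟩ hp
    simp only [Finset.mem_product, Finset.mem_univ, Finset.mem_filter, true_and] at hp
    simp [add_dotProduct, hp, hya]
  · intro f _; simp

theorem card_tvSet (n : ℕ) (hn : Fintype.card ι = n) (h1 : 1 ≤ n) :
    (Fintype.card F - 1) * (tvSet F ι).card =
      (Fintype.card F ^ n - 1) * (Fintype.card F ^ (n - 1) - 1) := by
  set P := Finset.univ.filter fun p : (ι → F) × (ι → F) => p.1 ≠ 0 ∧ p.2 ≠ 0 ∧ p.2 ⬝ᵥ p.1 = 0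
  have hP : P.card = (Fintype.card F ^ n - 1) * (Fintype.card F ^ (n - 1) - 1) := by
    rw [Finset.card_eq_sum_card_fiberwise (f := Prod.fst) (t := Finset.univ.filter fun a : ι → F => a ≠ 0)
      (fun p hp => by
        simp only [P, Finset.coe_filter, Finset.mem_univ, true_and, Set.mem_setOf_eq] at hp ⊢
        exact hp.1)]
    rw [Finset.sum_const_nat (m := Fintype.card F ^ (n - 1) - 1)]
    · rw [Finset.filter_ne', Finset.card_erase_of_mem (Finset.mem_univ _), Finset.card_univ,
        Fintype.card_fun, hn]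
    · intro a ha
      rw [Finset.mem_filter] at ha
      have hc : (Finset.univ.filter fun f : ι → F => f ⬝ᵥ a = 0).card = Fintype.card F ^ (n - 1) := by
        have h := card_perp ha.2
        rw [Fintype.card_fun, hn, show n = (n - 1) + 1 by omega, pow_succ'] at h
        exact Nat.eq_of_mul_eq_mul_left Fintype.card_pos h
      rw [← hc, ← Finset.card_erase_of_mem (s := Finset.univ.filter fun f : ι → F => f ⬝ᵥ a = 0)
        (a := 0) (by simp)]
      refine Finset.card_bij' (fun p _ => p.2) (fun f _ => (a, f)) ?_ ?_ ?_ ?_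
      · intro p hp
        simp only [P, Finset.mem_filter, Finset.mem_univ, true_and, Finset.mem_erase] at hp ⊢
        exact ⟨hp.1.2.1, hp.2 ▸ hp.1.2.2⟩
      · intro f hf
        simp only [P, Finset.mem_filter, Finset.mem_univ, true_and, Finset.mem_erase] at hf ⊢
        exact ⟨⟨ha.2, hf.1, hf.2⟩, trivial⟩
      · intro p hp
        simp only [Finset.mem_filter] at hp
        exact Prod.ext hp.2.symm rfl
      · intro f _; rfl
  have hdet : ∀ p ∈ P, (1 + vecMulVec p.1 p.2 : Matrix ι ι F).det = 1 := by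
    intro p hp
    simp only [P, Finset.mem_filter, Finset.mem_univ, true_and] at hp
    rw [Matrix.vecMulVec_eq Unit, Matrix.det_one_add_replicateCol_mul_replicateRow, hp.2.2, add_zero]
  let tv : (ι → F) × (ι → F) → Matrix.SpecialLinearGroup ι F := fun p =>
    if h : (1 + vecMulVec p.1 p.2 : Matrix ι ι F).det = 1 then ⟨_, h⟩ else 1
  have htv : ∀ p ∈ P, ((tv p : Matrix.SpecialLinearGroup ι F) : Matrix ι ι F) = 1 + vecMulVec p.1 p.2 :=
    fun p hp => by simp [tv, hdet p hp]
  rw [← hP, Finset.card_eq_sum_card_fiberwise (f := tv) (t := tvSet F ι) (fun p hp => by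
    have hd := htv p hp
    simp only [P, Finset.coe_filter, Finset.mem_univ, true_and, Set.mem_setOf_eq] at hp
    simp only [tvSet, Finset.coe_filter, Finset.mem_univ, true_and, Set.mem_setOf_eq]
    exact ⟨p.1, p.2, hp.1, hp.2.1, hp.2.2, hd⟩)]
  rw [Finset.sum_const_nat (m := Fintype.card F - 1), mul_comm]
  intro g hg
  simp only [tvSet, Finset.mem_filter, Finset.mem_univ, true_and] at hg
  obtain ⟨a, f, ha, hf, hfa, hgeq⟩ := hg
  rw [← Fintype.card_units, ← Finset.card_univ]
  symm
  refine Finset.card_bij (fun (c : Fˣ) _ => ((c : F) • a, ((c⁻¹ : Fˣ) : F) • f)) ?_ ?_ ?_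
  · intro c _
    have hmem : ((c : F) • a, ((c⁻¹ : Fˣ) : F) • f) ∈ P := by
      simp only [P, Finset.mem_filter, Finset.mem_univ, true_and]
      exact ⟨smul_ne_zero c.ne_zero ha, smul_ne_zero (Units.ne_zero _) hf, by simp [hfa]⟩
    refine Finset.mem_filter.2 ⟨hmem, ?_⟩
    apply Subtype.ext
    rw [htv _ hmem, hgeq, smul_vecMulVec, vecMulVec_smul, smul_smul, Units.mul_inv, one_smul]
  · intro c _ c' _ h
    obtain ⟨i, hi⟩ := Function.ne_iff.1 ha
    have := congrFun (congrArg Prod.fst h) i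
    simp only [Pi.smul_apply, smul_eq_mul] at this
    exact Units.ext (mul_right_cancel₀ hi this)
  · rintro ⟨a', f'⟩ hp
    rw [Finset.mem_filter] at hp
    have hd := hdet _ hp.1
    have he : (1 + vecMulVec a' f' : Matrix ι ι F) = 1 + vecMulVec a f := by
      rw [← hgeq, ← hp.2, htv _ hp.1]
    have he' : vecMulVec a' f' = vecMulVec a f := add_left_cancel he
    simp only [P, Finset.mem_filter, Finset.mem_univ, true_and] at hp
    obtain ⟨i, hi⟩ := Function.ne_iff.1 ha
    obtain ⟨j, hj⟩ := Function.ne_iff.1 hf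
    have hent : ∀ x y, a' x * f' y = a x * f y := fun x y => congrFun (congrFun he' x) y
    have hj' : f' j ≠ 0 := fun h => mul_ne_zero hi hj (by rw [← hent, h, mul_zero])
    refine ⟨Units.mk0 (f j / f' j) (div_ne_zero hj hj'), Finset.mem_univ _, ?_⟩
    refine Prod.ext (funext fun x => ?_) (funext fun y => ?_)
    · simp only [Pi.smul_apply, smul_eq_mul, Units.val_mk0]
      field_simp
      linear_combination -(hent x j)
    · simp only [Pi.smul_apply, smul_eq_mul, Units.val_inv_eq_inv_val, Units.val_mk0]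
      have hx : f' y * f j = f' j * f y := by
        apply mul_left_cancel₀ hi
        linear_combination (f' j) * (hent i y) - (f' y) * (hent i j)
      rw [inv_div, div_mul_eq_mul_div, div_eq_iff hj, hx]

end Tv

variable {l k : ℕ}

theorem geomN_eq_div (n q : ℕ) (hq : 2 ≤ q) : (q ^ (n + 1) - q) / (q - 1) = geomN (n + 1) q - 1 := by
  have h := sub_one_mul_geomN (n + 1) (show 1 ≤ q by omega)
  have h1 : q ^ (n + 1) - q = (q - 1) * (geomN (n + 1) q - 1) := by
    rw [Nat.mul_sub, mul_one]; omega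
  rw [h1, Nat.mul_div_cancel_left _ (by omega)]

/-- The lower bound. -/
theorem lower_bound (R : SLG F l →* Matrix (Fin k) (Fin k) ℂ) (hk : 2 ≤ k) (hl : 1 ≤ l)
    (hex : ¬(l + 2 = 3 ∧ Fintype.card F = 2) ∧ ¬(l + 2 = 3 ∧ Fintype.card F = 4) ∧
      ¬(l + 2 = 4 ∧ Fintype.card F = 2) ∧ ¬(l + 2 = 4 ∧ Fintype.card F = 3))
    (hschur : ∀ X, (∀ g, X * R g = R g * X) → ∃ c : ℂ, X = c • 1) :
    geomN (l + 2) (Fintype.card F) - 1 ≤ k := by
  set q := Fintype.card F with hq
  have h2q : 2 ≤ q := Fintype.one_lt_card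
  have hq2 : 2 ≤ l ∨ ¬ (q - 1) ∣ 3 := by
    by_contra h
    push Not at h
    rcases (Nat.dvd_prime Nat.prime_three).1 h.2 with h3 | h3
    · exact hex.1 ⟨by omega, by omega⟩
    · exact hex.2.1 ⟨by omega, by omega⟩
  have hq3 : l ≠ 2 ∨ ¬ (q - 1) ∣ 2 := by
    by_contra h
    push Not at h
    rcases (Nat.dvd_prime Nat.prime_two).1 h.2 with h3 | h3
    · exact hex.2.2.1 ⟨by omega, by omega⟩
    · exact hex.2.2.2 ⟨by omega, by omega⟩
  obtain ⟨ψ, hψ⟩ : ∃ ψ : AddChar F ℂ, ψ 1 ≠ 1 :=
    AddChar.exists_apply_ne_zero.2 (one_ne_zero : (1 : F) ≠ 0)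
  have hidem : ∀ w : Unit ⊕ Fin l → F, wproj R ψ w * wproj R ψ w = wproj R ψ w := fun w => by
    rw [wproj_mul_wproj R hψ, if_pos rfl]
  obtain ⟨a, ha, ha0⟩ := exists_natCast_trace (hidem (w0 F l))
  obtain ⟨a0, hA0, -⟩ := exists_natCast_trace (hidem 0)
  have hcf : Fintype.card (Unit ⊕ Fin l → F) = q ^ (l + 1) := by
    rw [Fintype.card_fun]
    simp [hq, add_comm]
  have hksum : k = a0 + (q ^ (l + 1) - 1) * a := by
    have h := congrArg Matrix.trace (sum_wproj R hψ)
    rw [Matrix.trace_sum, Matrix.trace_one, Fintype.card_fin,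
      ← Finset.add_sum_erase _ _ (Finset.mem_univ (0 : Unit ⊕ Fin l → F)), hA0] at h
    rw [Finset.sum_congr rfl (g := fun _ => (a : ℂ)) (fun w hw => by
      rw [trace_wproj_const R hl (Finset.ne_of_mem_erase hw), ha]), Finset.sum_const,
      Finset.card_erase_of_mem (Finset.mem_univ _), Finset.card_univ, hcf, nsmul_eq_mul] at h
    norm_cast at h
    omega
  have hAq : geomN (l + 2) q = geomN (l + 1) q + q ^ (l + 1) := geomN_succ _ _
  have hApos := le_geomN (l + 1) (show 1 ≤ q by omega)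
  have hgs := sub_one_mul_geomN (l + 1) (show 1 ≤ q by omega)
  have hgle : geomN (l + 1) q ≤ (q - 1) * geomN (l + 1) q := Nat.le_mul_of_pos_left _ (by omega)
  rcases Nat.lt_or_ge a 2 with ha2 | ha2
  swap
  · have : 2 * (q ^ (l + 1) - 1) ≤ (q ^ (l + 1) - 1) * a := by
      rw [mul_comm]; exact Nat.mul_le_mul_left _ ha2
    omega
  interval_cases a
  · exfalso
    -- the translations act trivially, hence everything does
    have hz : ∀ w : Unit ⊕ Fin l → F, w ≠ 0 → wproj R ψ w = 0 := fun w hw => by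
      obtain ⟨b, hb, hb0⟩ := exists_natCast_trace (hidem w)
      refine hb0 ?_
      rw [trace_wproj_const R hl hw, ha] at hb
      exact_mod_cast hb.symm
    have hP0 : wproj R ψ 0 = 1 := by
      rw [← sum_wproj R hψ]
      exact (Finset.sum_eq_single 0 (fun w _ hw => hz w hw) (by simp)).symm
    have hev : ∀ v, R (ev (Multiplicative.ofAdd v)) = 1 := fun v => by
      have h := R_ev_mul_wproj R (ψ := ψ) v 0
      rwa [hP0, mul_one, dotProduct_zero, AddChar.map_zero_eq_one, one_smul] at h
    have hall : ∀ g, R g = 1 := by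
      refine CfsgLib.Classical.Linear.sl_induction (map_one R) ?_
        (fun A B hA hB => by rw [map_mul, hA, hB, one_mul])
      have hzj : ∀ (j : Unit ⊕ (Unit ⊕ Fin l)) (h : Sum.inl () ≠ j) (c : F),
          R (Matrix.SpecialLinearGroup.transvection h c) = 1 := by
        intro j h c
        rcases j with u | i
        · exact absurd rfl h
        · rw [transvection_inl_inr, hev]
      have hcomm : ∀ (x y : SLG F l), (R x = 1 ∨ R y = 1) → R (x * y * x⁻¹ * y⁻¹) = 1 := by
        intro x y h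
        rcases h with h | h
        · have h' : R x⁻¹ = 1 := by
            have := map_mul R x x⁻¹
            rwa [mul_inv_cancel, map_one, h, one_mul, eq_comm] at this
          rw [map_mul, map_mul, map_mul, h, h', one_mul, mul_one, ← map_mul, mul_inv_cancel, map_one]
        · have h' : R y⁻¹ = 1 := by
            have := map_mul R y y⁻¹
            rwa [mul_inv_cancel, map_one, h, one_mul, eq_comm] at this
          rw [map_mul, map_mul, map_mul, h, h', mul_one, mul_one, ← map_mul, mul_inv_cancel, map_one]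
      have hij : ∀ (i j : Unit ⊕ (Unit ⊕ Fin l)) (h : i ≠ j) (c : F), j ≠ Sum.inl () →
          R (Matrix.SpecialLinearGroup.transvection h c) = 1 := by
        intro i j h c hj
        rcases eq_or_ne i (Sum.inl ()) with rfl | hi
        · exact hzj j h c
        · rw [← mul_one c, ← CfsgLib.Classical.Linear.transvection_commutator hi hj.symm h c 1]
          exact hcomm _ _ (Or.inr (hzj j _ _))
      intro i j h c
      rcases eq_or_ne j (Sum.inl ()) with rfl | hj
      · obtain ⟨x, hxi, hxz⟩ := CfsgLib.Classical.Linear.exists_third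
          (ι := Unit ⊕ (Unit ⊕ Fin l)) (by simp; omega) i (Sum.inl ())
        rw [← mul_one c, ← CfsgLib.Classical.Linear.transvection_commutator hxi.symm hxz h c 1]
        exact hcomm _ _ (Or.inl (hij i x _ _ hxz))
      · exact hij i j h c hj
    obtain ⟨c, hc⟩ := hschur (Matrix.single ⟨0, by omega⟩ ⟨1, by omega⟩ 1)
      (fun g => by rw [hall g, mul_one, one_mul])
    have := congrFun (congrFun hc ⟨0, by omega⟩) ⟨1, by omega⟩
    simp [Matrix.one_apply] at this
  -- multiplicity one
  have h1 : (wproj R ψ (w0 F l)).trace = 1 := by rw [ha, Nat.cast_one]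
  by_contra hlt
  push Not at hlt
  set A := geomN (l + 2) q with hA
  have hge : A ≤ k + (l + 2) := by
    have h := degree_ge R hψ h1 hl hq2 hq3
    rw [← sub_one_mul_geomN (l + 2) (show 1 ≤ q by omega), ← hA, ← hq] at h
    have h' : (q - 1) * A ≤ (q - 1) * (k + (l + 2)) := by
      rw [Nat.mul_add, Nat.mul_comm (q - 1) (l + 2)]
      omega
    exact Nat.le_of_mul_le_mul_left h' (by omega)
  set T := tvSet F (Unit ⊕ (Unit ⊕ Fin l)) with hT
  have hcι : Fintype.card (Unit ⊕ (Unit ⊕ Fin l)) = l + 2 := by simp; omega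
  have hTcard : T.card = A * (q ^ (l + 1) - 1) := by
    have h := card_tvSet (F := F) (ι := Unit ⊕ (Unit ⊕ Fin l)) (l + 2) hcι (by omega)
    rw [show l + 2 - 1 = l + 1 by omega, ← hq,
      show q ^ (l + 2) - 1 = (q - 1) * A by
        have := sub_one_mul_geomN (l + 2) (show 1 ≤ q by omega)
        rw [← hA] at this
        omega, mul_assoc] at h
    exact Nat.eq_of_mul_eq_mul_left (by omega) h
  have hval : ∀ g ∈ T, (R g).trace = (k : ℂ) - (q : ℂ) ^ (l + 1) := by
    intro g hg
    rw [hT, tvSet, Finset.mem_filter] at hg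
    obtain ⟨a, f, ha', hf, hfa, hgeq⟩ := hg.2
    have hnil : IsNilpotent ((g : MatG F l) - 1) := by
      refine ⟨2, ?_⟩
      rw [hgeq, add_sub_cancel_left, sq, Matrix.vecMulVec_mul_vecMulVec, hfa]
      simp
    have h := trace_unipotent R hψ h1 hl hq2 hq3 g hnil
    have hfix : fixN g = q ^ (l + 1) := by
      have hp := card_perp hf
      rw [Fintype.card_fun, hcι, pow_succ', ← hq] at hp
      rw [← Nat.eq_of_mul_eq_mul_left (by omega) hp, fixN]
      congr 1
      refine Finset.filter_congr fun x _ => ?_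
      rw [isTv_mulVec hgeq, dotProduct_comm x f, add_eq_left]
      simp [ha']
    rw [hfix, Fintype.card_fun, hcι, ← hq, Nat.cast_pow, Nat.cast_pow] at h
    have hq1 : (q : ℂ) - 1 ≠ 0 := by
      rw [sub_ne_zero]
      exact_mod_cast (show q ≠ 1 by omega)
    apply mul_left_cancel₀ hq1
    linear_combination h
  set S := ∑ g ∈ T, R g with hS
  obtain ⟨c, hc⟩ := hschur S (fun x => by
    rw [hS, Finset.mul_sum, Finset.sum_mul]
    refine Finset.sum_equiv ((MulAut.conj x⁻¹).toEquiv) (fun g => ?_) (fun g _ => ?_)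
    · simp only [hT, tvSet, Finset.mem_filter, Finset.mem_univ, true_and, MulEquiv.toEquiv_eq_coe,
        MulEquiv.coe_toEquiv, MulAut.conj_apply, inv_inv]
      constructor
      · intro h
        have := isTv_conj x⁻¹ h
        rwa [inv_inv] at this
      · intro h
        have := isTv_conj x h
        rwa [show x * (x⁻¹ * g * x) * x⁻¹ = g by group] at this
    · simp only [MulEquiv.toEquiv_eq_coe, MulEquiv.coe_toEquiv, MulAut.conj_apply, inv_inv]
      rw [← map_mul, ← map_mul]
      congr 1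
      group)
  have hck : c * k = (T.card : ℂ) * ((k : ℂ) - (q : ℂ) ^ (l + 1)) := by
    have h := congrArg Matrix.trace hc
    rw [hS, Matrix.trace_sum, Finset.sum_congr rfl hval, Finset.sum_const, nsmul_eq_mul,
      Matrix.trace_smul, Matrix.trace_one, Fintype.card_fin, smul_eq_mul] at h
    exact h.symm
  have hint : IsIntegral ℤ c := by
    haveI : Nonempty (Fin k) := ⟨⟨0, by omega⟩⟩
    have hx : IsIntegral ℤ (∑ g ∈ T, MonoidAlgebra.single g (1 : ℤ)) := IsIntegral.of_finite ℤ _
    have h := hx.map (MonoidAlgebra.lift ℤ (Matrix (Fin k) (Fin k) ℂ) (SLG F l) R)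
    rw [map_sum] at h
    simp only [MonoidAlgebra.lift_single, one_smul] at h
    rw [← hS, hc, ← Algebra.algebraMap_eq_smul_one] at h
    exact (isIntegral_algebraMap_iff (algebraMap ℂ (Matrix (Fin k) (Fin k) ℂ)).injective).1 h
  have hrat : c = algebraMap ℚ ℂ ((T.card : ℚ) * ((k : ℚ) - (q : ℚ) ^ (l + 1)) / k) := by
    have hk0 : (k : ℂ) ≠ 0 := Nat.cast_ne_zero.2 (by omega)
    simp only [map_div₀, map_mul, map_sub, map_pow, map_natCast]
    rw [eq_div_iff hk0, hck]
  obtain ⟨z, hz⟩ := IsIntegrallyClosed.isIntegral_iff.1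
    ((isIntegral_algebraMap_iff (algebraMap ℚ ℂ).injective).1 (hrat ▸ hint))
  have hzk : z * (k : ℤ) = (T.card : ℤ) * ((k : ℤ) - (q : ℤ) ^ (l + 1)) := by
    have hk0 : (k : ℚ) ≠ 0 := Nat.cast_ne_zero.2 (by omega)
    rw [eq_div_iff hk0, eq_intCast] at hz
    exact_mod_cast hz
  have hdvd : k ∣ T.card * q ^ (l + 1) := by
    rw [← Int.natCast_dvd_natCast]
    refine ⟨(T.card : ℤ) - z, ?_⟩
    push_cast
    linear_combination hzk
  refine not_dvd_numerator (n := l + 2) (q := q) (e := A - k) (FiniteField.isPrimePow_card F) (by omega)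
    hex (by omega) (by omega) ?_
  rw [← hA, show A - (A - k) = k by omega, show l + 2 - 1 = l + 1 by omega, ← hTcard]
  exact hdvd

end CfsgLib.SlMinDegree
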