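import Cfsg.Agent.SlVectorChars.Basic
import Cfsg.Agent.Chars.Basic
import Cfsg.Agent.Eq.Def_Characters

/-!
An irreducible representation of `SL_n` of degree `(q^n - q)/(q - 1)`.
-/

set_option autoImplicit false
set_option linter.unusedSectionVars false

open scoped Classical

noncomputable section

namespace CfsgLib.SlMinDegree

open Cfsg Matrix

variable {F : Type*} [Field F] [Fintype F] [DecidableEq F] {n : ℕ}

theorem chiA_one_one (hn : 1 ≤ n) :
    CfsgLib.SlVectorChars.chiA (1 : MulChar F ℂ) (1 : Matrix.SpecialLinearGroup (Fin n) F) *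
      ((Fintype.card F - 1 : ℕ) : ℂ) = ((Fintype.card F ^ n - 1 : ℕ) : ℂ) := by
  have key : ∀ v : {v : Fin n → F // v ≠ 0}, ∑ c : Fˣ,
      (if ((1 : Matrix.SpecialLinearGroup (Fin n) F) : Matrix (Fin n) (Fin n) F) *ᵥ (v : Fin n → F) =
          (c : F) • (v : Fin n → F) then (1 : MulChar F ℂ) c else 0) = 1 := by
    intro v
    rw [Finset.sum_eq_single (1 : Fˣ)]
    · simp
    · intro c _ hc
      rw [if_neg]
      intro h
      rw [Matrix.SpecialLinearGroup.coe_one, Matrix.one_mulVec] at h
      apply hc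
      obtain ⟨i, hi⟩ := Function.ne_iff.1 v.2
      have := congrFun h i
      rw [Pi.smul_apply, smul_eq_mul] at this
      refine Units.ext ?_
      rw [Units.val_one]
      exact (mul_eq_right₀ hi).1 this.symm
    · simp
  unfold CfsgLib.SlVectorChars.chiA
  rw [Finset.sum_congr rfl (fun v _ => key v), Finset.sum_const, Finset.card_univ, nsmul_eq_mul, mul_one,
    Fintype.card_subtype_compl, Fintype.card_subtype_eq, Fintype.card_fun, Fintype.card_fin, Fintype.card_units,
    mul_comm, ← mul_assoc, mul_inv_cancel₀, one_mul]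
  have := Fintype.one_lt_card (α := F)
  exact Nat.cast_ne_zero.2 (by omega)

theorem exists_irreducible (hn : 3 ≤ n) :
    ∃ ρ : Representation ℂ (Matrix.SpecialLinearGroup (Fin n) F)
      (Fin ((Fintype.card F ^ n - Fintype.card F) / (Fintype.card F - 1)) → ℂ), ρ.IsIrreducible := by
  set G := Matrix.SpecialLinearGroup (Fin n) F
  have hc := CfsgLib.SlVectorChars.chiA_isCharacter (F := F) (n := n) (by omega)
  set one : G → ℂ := (CfsgLib.Chars.oneChar G : G → ℂ) with hone
  have hone1 : classInner (CfsgLib.SlVectorChars.chiA (n := n) (1 : MulChar F ℂ)) one = 1 := by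
    haveI : NeZero n := ⟨by omega⟩
    rw [← CfsgLib.SlVectorChars.indFun_lineChar (n := n) (by omega) (1 : MulChar F ℂ), hone,
      CfsgLib.Chars.Induced.classInner_indFun _ _ (CfsgLib.Chars.isClassFunction_coe _)]
    simp only [classInner, CfsgLib.Chars.oneChar_apply, map_one, mul_one]
    rw [Nat.card_eq_fintype_card, sum_hom_units (CfsgLib.SlVectorChars.lineChar (n := n) (1 : MulChar F ℂ)),
      if_pos, inv_mul_cancel₀ (Nat.cast_ne_zero.2 Fintype.card_ne_zero)]
    ext g
    obtain ⟨c, hc⟩ := g.2
    show (1 : MulChar F ℂ) _ = 1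
    rw [CfsgLib.SlVectorChars.lineScalar g hc, MulChar.one_apply_coe]
  obtain ⟨φ, hφ, he⟩ := CfsgLib.Chars.exists_add_of_classInner_ne_zero (hc 1)
    (CfsgLib.Chars.oneChar G) (by rw [← hone, hone1]; exact one_ne_zero)
  have hφ' : φ = CfsgLib.SlVectorChars.chiA (1 : MulChar F ℂ) - one := by rw [he]; simp [hone]
  have hself : classInner φ φ = 1 := by
    have hr : ∀ f g h : G → ℂ, classInner h (f - g) = classInner h f - classInner h g := fun f g h => by
      rw [← CfsgLib.Chars.classInner_conj_symm, CfsgLib.Chars.classInner_sub_left, map_sub,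
        CfsgLib.Chars.classInner_conj_symm, CfsgLib.Chars.classInner_conj_symm]
    rw [hφ', CfsgLib.Chars.classInner_sub_left, hr, hr, CfsgLib.SlVectorChars.classInner_chiA hn, hone1,
      ← CfsgLib.Chars.classInner_conj_symm (CfsgLib.SlVectorChars.chiA (1 : MulChar F ℂ)) one, hone1, hone,
      CfsgLib.Chars.classInner_self]
    simp
  obtain ⟨d, ρ, hρ, hch⟩ := CfsgLib.Chars.isIrrCharacter_of_classInner_self hφ hself
  have hd : d = (Fintype.card F ^ n - Fintype.card F) / (Fintype.card F - 1) := by
    have h1 := congrFun hch 1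
    rw [Representation.char_one, Module.finrank_fin_fun, hφ'] at h1
    simp only [Pi.sub_apply, hone, CfsgLib.Chars.oneChar_apply] at h1
    have h2 := chiA_one_one (F := F) (n := n) (by omega)
    have h3 : ((d + 1) * (Fintype.card F - 1) : ℕ) = Fintype.card F ^ n - 1 := by
      have : (((d + 1) * (Fintype.card F - 1) : ℕ) : ℂ) = ((Fintype.card F ^ n - 1 : ℕ) : ℂ) := by
        rw [← h2, Nat.cast_mul, Nat.cast_add, h1, Nat.cast_one, sub_add_cancel]
      exact_mod_cast this
    have hq := Fintype.one_lt_card (α := F)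
    rw [Nat.add_mul, one_mul] at h3
    rw [show Fintype.card F ^ n - Fintype.card F = d * (Fintype.card F - 1) by omega,
      Nat.mul_div_cancel _ (by omega)]
  subst hd
  exact ⟨ρ, hρ⟩

end CfsgLib.SlMinDegree
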